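import Cfsg.Agent.H42.PcDefs

/-! Project PC, pieces UNI and ODD. -/

set_option autoImplicit false

namespace Cfsg.Agent.H80.PcUni

open Subgroup Cfsg.Agent.H42.Pc

universe u

theorem uni : UniStmt.{u} := by
  intro G _ _ S hS y y' ⟨g, hz⟩
  have k1 : ∀ a b x : G, zpowers a = zpowers b → Commute x b → Commute x a := by
    intro a b x h hc
    obtain ⟨k, hk⟩ : a ∈ zpowers b := h ▸ mem_zpowers a
    rw [← hk]
    exact hc.zpow_right k
  have k2 : ∀ x : G, Commute x y ↔ Commute (g * x * g⁻¹) y' := by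
    intro x
    constructor
    · intro h
      exact k1 _ _ _ hz (h.map (MulAut.conj g))
    · intro h
      have h1 : Commute (MulAut.conj g x) (MulAut.conj g y) := k1 _ _ _ hz.symm h
      exact (commute_map_iff (MulAut.conj g).injective).1 h1
  have k3 : ∀ x : G, x ∈ S ↔ g * x * g⁻¹ ∈ S := fun x =>
    ⟨fun h => hS.conj_mem x h g, fun h => by
      have := hS.conj_mem _ h g⁻¹
      rwa [show g⁻¹ * (g * x * g⁻¹) * g⁻¹⁻¹ = x by group] at this⟩
  constructor
  · refine (Nat.card_congr ((MulAut.conj g).toEquiv.subtypeEquiv fun x => ?_)).symm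
    have k4 : orderOf (g * x * g⁻¹) = orderOf x := (MulAut.conj g).orderOf_eq x
    show _ ↔ g * x * g⁻¹ ∈ S ∧ Commute (g * x * g⁻¹) y' ∧ Odd (orderOf (g * x * g⁻¹))
    rw [k4, ← k2, ← k3]
  · refine (Nat.card_congr ((MulAut.conj g).toEquiv.subtypeEquiv fun x => ?_)).symm
    show x ∈ S ⊓ centralizer {y} ↔ g * x * g⁻¹ ∈ S ⊓ centralizer {y'}
    rw [mem_inf, mem_inf, mem_centralizer_singleton_iff, mem_centralizer_singleton_iff, ← k3]
    exact and_congr Iff.rfl (k2 x)

theorem odd : OddStmt.{u} := by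
  classical
  intro G _ _ S y
  haveI : Fact (Nat.Prime 2) := ⟨Nat.prime_two⟩
  let α := {g : G // g ∈ S ∧ Commute g y ∧ Odd (orderOf g)}
  letI : Fintype α := Fintype.ofFinite α
  let f : Function.End α := fun x =>
    ⟨x.1⁻¹, S.inv_mem x.2.1, x.2.2.1.inv_left, by rw [orderOf_inv]; exact x.2.2.2⟩
  have hf : f ^ 2 ^ 1 = 1 := by
    funext x
    exact Subtype.ext (inv_inv x.1)
  have h1 := Equiv.Perm.card_fixedPoints_modEq hf
  have h2 : Fintype.card f.fixedPoints = 1 := by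
    rw [Fintype.card_eq_one_iff]
    refine ⟨⟨⟨1, S.one_mem, Commute.one_left y, by simp⟩, Subtype.ext inv_one⟩, ?_⟩
    rintro ⟨⟨x, h3, h4, h5⟩, hx⟩
    have h6 : x⁻¹ = x := congrArg Subtype.val hx
    have h7 : x ^ 2 = 1 := by rw [pow_two]; nth_rewrite 1 [← h6]; exact inv_mul_cancel x
    have h8 : orderOf x = 1 :=
      ((Nat.dvd_prime Nat.prime_two).1 (orderOf_dvd_of_pow_eq_one h7)).resolve_right
        (fun e => by rw [e] at h5; norm_num at h5)
    exact Subtype.ext (Subtype.ext (orderOf_eq_one_iff.1 h8))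
  rw [h2, ← Nat.card_eq_fintype_card] at h1
  exact Nat.odd_iff.2 h1

end Cfsg.Agent.H80.PcUni
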