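import Cfsg.Agent.H42.FvDefs

/-!
# Project FV, piece ENT: the entries of the root elements over a commutative ring
-/

set_option autoImplicit false

namespace Cfsg.Agent.H80.FvEnt

open Equiv Cfsg.Lie H37 H40 H34 H29 Module H50.E83 H42.Fv
open scoped Matrix

set_option maxRecDepth 100000 in
theorem short8 : (chevE8.chain.toList.all fun row => row.toList.all fun e =>
    decide (e.2.toList.length ≤ 1)) = true := by
  decide +kernel

section

variable (D : ChevalleyDatum)

/-- The matrix of a root element over a commutative ring. -/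
def xD (A : Type) [CommRing A] (r : Fin D.nroots) (t : A) : Matrix D.Idx D.Idx A :=
  Matrix.of fun row col =>
    match col with
    | Sum.inl i =>
      (match row with
       | Sum.inl i' => if i' = i then 1 else 0
       | Sum.inr u => if u = r then - (((D.cartanSR.getD i.val #[]).getD r.val 0 : ℤ) : A) * t else 0)
    | Sum.inr s =>
      if s = r then (match row with | Sum.inr u => if u = r then 1 else 0 | Sum.inl _ => 0)
      else if s.val = D.negIdx.getD r.val 0 then
        (match row with
         | Sum.inl i => (((D.coroot.getD r.val #[]).getD i.val 0 : ℤ) : A) * t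
         | Sum.inr u => if u = s then 1 else if u = r then -(t ^ 2) else 0)
      else
        (match row with
         | Sum.inl _ => 0
         | Sum.inr u => (if u = s then 1 else 0) +
             ((D.chainCoeff r.val s.val u.val).map fun km => ((km.2 : ℤ) : A) * t ^ km.1).sum)

variable {D}

theorem coeff (h : (D.chain.toList.all fun row => row.toList.all fun e =>
    decide (e.2.toList.length ≤ 1)) = true) (hB : Basic D) {r : ℕ} (hr : r < D.nroots) (s u : ℕ) :
    ∀ km ∈ D.chainCoeff r s u, km.1 = 1 ∧ D.chainRoot r s (0 + 1) = some u := by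
  intro km hk
  have l : ∀ e ∈ (D.chain.getD r #[]).toList, e.2.toList.length ≤ 1 := fun e he => by
    rw [Array.getD_eq_getD_getElem?] at he
    cases hc : D.chain[r]? with
    | none => rw [hc] at he; simp at he
    | some row =>
      rw [hc] at he
      have m : row ∈ D.chain.toList := Array.mem_toList_iff.2 (Array.mem_of_getElem? hc)
      exact of_decide_eq_true (List.all_eq_true.1 (List.all_eq_true.1 h row m) e he)
  rw [ChevalleyDatum.chainCoeff, filter_key_eq _ (hB.keys r hr)] at hk
  rw [ChevalleyDatum.chainRoot, ChevalleyDatum.chainEntry]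
  cases hf : (D.chain.getD r #[]).toList.find? (fun e => decide (e.1 = s)) with
  | none => rw [hf] at hk; simp at hk
  | some e =>
    rw [hf] at hk
    have le := l e (List.mem_of_find?_eq_some hf)
    simp only [Option.toList_some, List.flatMap_cons, List.flatMap_nil, List.append_nil] at hk
    change km.1 = 1 ∧ Option.map Prod.fst (e.2.toList[0 + 1 - 1]?) = some u
    generalize e.2.toList = L at hk le ⊢
    rcases L with _ | ⟨a, _ | ⟨b, L⟩⟩
    · simp at hk
    · simp only [List.zipIdx_cons, List.zipIdx_nil, List.mem_map, List.mem_filter,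
        List.mem_singleton, decide_eq_true_eq] at hk
      obtain ⟨q, ⟨rfl, h2⟩, rfl⟩ := hk
      exact ⟨rfl, by simpa using h2⟩
    · simp at le

theorem sum_one {A : Type} [CommRing A] (t : A) (L : List (ℕ × ℤ)) (h : ∀ km ∈ L, km.1 = 1) :
    (L.map fun km => ((km.2 : ℤ) : A) * t ^ km.1).sum = (((L.map Prod.snd).sum : ℤ) : A) * t := by
  induction L with
  | nil => simp
  | cons a L ih =>
    rw [List.map_cons, List.sum_cons, ih fun km hk => h km (List.mem_cons_of_mem _ hk),
      h a List.mem_cons_self, List.map_cons, List.sum_cons, pow_one, Int.cast_add, add_mul]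

/-- The structure constants. -/
noncomputable def cf (C : Cert D) (r s' s : Fin D.nroots) : ℤ :=
  if s' = r ∨ s' = C.R.neg r then 0 else ((D.chainCoeff r s' s).map Prod.snd).sum

theorem ent (C : Cert D) (h : (D.chain.toList.all fun row => row.toList.all fun e =>
    decide (e.2.toList.length ≤ 1)) = true) :
    (∀ r s' s, cf C r s' s ≠ 0 → C.R.rc s = C.R.rc r + C.R.rc s') ∧
    ∀ (A : Type) [CommRing A] (r : Fin D.nroots) (t : A) (v : D.Idx → A),
      (∀ i : Fin D.rank, (xD D A r t *ᵥ v) (Sum.inl i) =
        v (Sum.inl i) + t * v (Sum.inr (C.R.neg r)) * ((co D r i : ℤ) : A)) ∧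
      ∀ s, (xD D A r t *ᵥ v) (Sum.inr s) = v (Sum.inr s) +
        (if s = r then -((∑ i : Fin D.rank, v (Sum.inl i) * ((D.cartan i r : ℤ) : A)) * t) -
          t ^ 2 * v (Sum.inr (C.R.neg r)) else 0) +
        ∑ s', (cf C r s' s : A) * t * v (Sum.inr s') := by
  have hB := C.V.basic
  refine ⟨fun r s' s h0 => ?_, fun A _ r t v => ?_⟩
  · rw [cf] at h0
    split_ifs at h0 with c
    · exact absurd rfl h0
    · obtain ⟨km, hk⟩ := List.exists_mem_of_ne_nil (D.chainCoeff r s' s) fun e => h0 (by simp [e])
      have := (C.chainRoot_spec r.2 s'.2 (coeff h hB r.2 s' s km hk).2).2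
      simpa using C.rc_of_cartan (k := s) (r := r) (s := s') (a := 1) (b := 1) (by simpa using this)
  have nv : ∀ s : Fin D.nroots, s.val = D.negIdx.getD r.val 0 ↔ s = C.R.neg r := fun s => by
    rw [Fin.ext_iff, C.neg_val]; rfl
  have nr : C.R.neg r ≠ r := fun e => hB.neg_ne r r.2 (by rw [← C.neg_val, e])
  refine ⟨fun i => ?_, fun s => ?_⟩
  · have e : ∀ s', xD D A r t (Sum.inl i) (Sum.inr s') =
        if s' = C.R.neg r then ((co D r i : ℤ) : A) * t else 0 := fun s' => by
      simp only [xD, Matrix.of_apply, nv]
      by_cases a : s' = r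
      · rw [if_pos a, if_neg (a ▸ nr.symm)]
      · rw [if_neg a]; rfl
    have e' : ∀ j, xD D A r t (Sum.inl i) (Sum.inl j) = if i = j then 1 else 0 := fun _ => rfl
    simp only [Matrix.mulVec, dotProduct, Fintype.sum_sum_type, e, e', ite_mul, one_mul, zero_mul,
      Finset.sum_ite_eq, Finset.sum_ite_eq', Finset.mem_univ, if_true]
    ring
  · have e : ∀ s', xD D A r t (Sum.inr s) (Sum.inr s') = (if s = s' then 1 else 0) +
        (if s' = C.R.neg r then (if s = r then -(t ^ 2) else 0) else 0) + (cf C r s' s : A) * t :=
      fun s' => by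
      simp only [xD, Matrix.of_apply, nv, cf]
      by_cases a : s' = r
      · subst a
        simp [nr.symm]
      · by_cases b : s' = C.R.neg r
        · subst b
          by_cases c : s = C.R.neg r
          · simp [c, nr]
          · simp [c, nr]
        · rw [if_neg a, if_neg b, if_neg b, if_neg (not_or.2 ⟨a, b⟩), add_zero,
            sum_one t _ fun km hk => (coeff h hB r.2 s' s km hk).1]
    have e' : ∀ j, xD D A r t (Sum.inr s) (Sum.inl j) =
        if s = r then -((D.cartan j r : ℤ) : A) * t else 0 := fun _ => rfl
    simp only [Matrix.mulVec, dotProduct, Fintype.sum_sum_type, e, e', add_mul, ite_mul, one_mul,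
      zero_mul, Finset.sum_add_distrib, Finset.sum_ite_eq, Finset.sum_ite_eq', Finset.mem_univ,
      if_true]
    by_cases a : s = r
    · simp only [if_pos a, Finset.sum_mul]
      rw [show ∑ j : Fin D.rank, -((D.cartan j r : ℤ) : A) * t * v (Sum.inl j) =
        -∑ j : Fin D.rank, v (Sum.inl j) * ((D.cartan j r : ℤ) : A) * t by
          rw [← Finset.sum_neg_distrib]; exact Finset.sum_congr rfl fun j _ => by ring]
      ring
    · simp only [if_neg a, Finset.sum_const_zero]
      ring

end

theorem xR_eq (A : Type) [CommRing A] (r : Rt) (t : A) : xR A r t = xD chevE8 A r t := by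
  ext i j
  rcases i with i | i <;> rcases j with j | j <;> rfl

theorem entS : EntStmt := by
  refine ⟨cf C8, (ent C8 short8).1, fun A _ r t v => ?_⟩
  rw [xR_eq]
  exact (ent C8 short8).2 A r t v

end Cfsg.Agent.H80.FvEnt
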