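import Cfsg.Agent.H35.S4Defs
import Cfsg.Agent.H67.Conj

/-! S4, piece STA2: `t` is fused with some `t z`, and `R2`. -/

set_option autoImplicit false

namespace Cfsg.Agent.H80.S4StA2

open Cfsg Cfsg.Agent.H63 Cfsg.Agent.H63.SL Cfsg.Agent.H35.S4 Subgroup
open scoped commutatorElement

universe u v

variable {G : Type u} [Group G]

theorem comC {L : Subgroup G} {k l : G} (hk : k ∈ C[L]) (hl : l ∈ L) : Commute l k :=
  mem_centralizer_iff.1 hk l hl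

theorem nc (A : Subgroup G) : N[A] ≤ N[C[A]] := by
  have k : ∀ g ∈ N[A], ∀ c ∈ C[A], g * c * g⁻¹ ∈ C[A] := fun g hg c hc =>
    mem_centralizer_iff.2 fun a ha => by
      have h := mem_centralizer_iff.1 hc _ ((mem_normalizer_iff''.1 hg a).1 ha)
      calc a * (g * c * g⁻¹) = g * (g⁻¹ * a * g * c) * g⁻¹ := by group
        _ = _ := by rw [h]; group
  refine fun g hg => mem_normalizer_iff.2 fun c => ⟨k g hg c, fun h => ?_⟩
  simpa [mul_assoc] using k _ (inv_mem hg) _ h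

theorem inner {L : Subgroup G} {t e : G} (hz : Z[L] = ⊥) (tc : Tc L t) (he : e ∈ L ⊔ C[L])
    (het : Commute e t) (h2 : e * e = 1) : ∃ j ∈ L, j * j = 1 ∧ (e = j ∨ e = t * j) := by
  obtain ⟨j, hj, k, hk, rfl⟩ := (H67.mem_sup_of_le_normalizer
    (le_normalizer.trans (nc _))).1 he
  have c := comC hk hj
  have h3 : j * j * (k * k) = 1 := by
    rw [← h2, ← sq, ← sq, ← sq, c.mul_pow]
  have h4 : j * j = 1 := by
    refine mem_bot.1 (hz ▸ (mem_inf.2 ⟨mul_mem hj hj, ?_⟩ : j * j ∈ Z[L]))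
    rw [eq_inv_of_mul_eq_one_left h3]
    exact inv_mem (mul_mem hk hk)
  rw [h4, one_mul] at h3
  have h5 : Commute k t := by
    have := (comC tc.tc hj).inv_left.mul_left het
    rwa [inv_mul_cancel_left] at this
  rcases tc.one k hk h5 h3 with rfl | rfl
  · exact ⟨j, hj, h4, Or.inl (mul_one _)⟩
  · exact ⟨j, hj, h4, Or.inr c.eq⟩

theorem root {L : Subgroup G} {t k : G} (tc : Tc L t) (hk : k ∈ C[L]) (hkt : Commute k t)
    {n : ℕ} (hn : k ^ 2 ^ n = 1) : (k = 1 ∨ k = t) ∨ ∃ r ∈ C[L], r * r = t := by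
  induction n generalizing k with
  | zero => exact Or.inl (Or.inl (by simpa using hn))
  | succ n ih =>
    rcases ih (mul_mem hk hk) (hkt.mul_left hkt) (by rwa [← sq, ← pow_mul, ← pow_succ']) with
      (h | h) | h
    · exact Or.inl (tc.one k hk hkt h)
    · exact Or.inr ⟨k, hk, h⟩
    · exact Or.inr h

theorem stA2 : StA2Stmt.{u, v} := by
  intro F _ _ G _ _ L x hM kp kn t tc _ noL nw ⟨g, hg, hne⟩
  have t2 : t * t = 1 := by rw [← sq, ← tc.t2, pow_orderOf_eq_one]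
  have xL : ∀ i a, x i a ∈ L := fun i a => hM.gen ▸
    (subset_closure ⟨i, trivial, subset_closure ⟨a, rfl⟩⟩ : x i a ∈ UU x Set.univ)
  have hd2 : g * t * g⁻¹ * (g * t * g⁻¹) = 1 := by rw [conj_mul, t2]; group
  have hdN : g * t * g⁻¹ ∈ N[L] := tc.cN (mem_centralizer_singleton_iff.2 hg.eq)
  have k1 : ∃ j ∈ L, j * j = 1 ∧ j ≠ 1 ∧ t * j ∈ Dt t := by
    by_cases hin : g * t * g⁻¹ ∈ L ⊔ C[L]
    · obtain ⟨j, hj, h2, e | e⟩ := inner hM.zL tc hin hg hd2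
      · exact absurd (e ▸ hj) (noL _ ⟨g, rfl⟩)
      · refine ⟨j, hj, h2, ?_, ⟨g, e.symm⟩⟩
        rintro rfl
        exact hne (by rw [e, mul_one])
    obtain ⟨B, b1, b2, b3, b4, -⟩ := kn.out _ hdN hd2 hin
    have hc : ∀ b ∈ cj g⁻¹ B, Commute b t := by
      rintro _ ⟨b, hb, rfl⟩
      have h1 : b * (g * t * g⁻¹) = g * t * g⁻¹ * b := mem_centralizer_singleton_iff.1 (b1 hb).2
      change g⁻¹ * b * g⁻¹⁻¹ * t = t * (g⁻¹ * b * g⁻¹⁻¹)
      calc g⁻¹ * b * g⁻¹⁻¹ * t = g⁻¹ * (b * (g * t * g⁻¹)) * g := by group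
        _ = _ := by rw [h1]; group
    have hs : ∀ b ∈ cj g⁻¹ B, b * b = 1 := by
      rintro _ ⟨b, hb, rfl⟩
      change g⁻¹ * b * g⁻¹⁻¹ * (g⁻¹ * b * g⁻¹⁻¹) = 1
      rw [conj_mul, b2 b hb]; group
    have hD : ∀ b ∈ cj g⁻¹ B, t * b ∈ Dt t := by
      rintro _ ⟨b, hb, rfl⟩
      obtain ⟨l, -, e⟩ := b3 b hb
      refine ⟨g⁻¹ * l * g, ?_⟩
      change t * (g⁻¹ * b * g⁻¹⁻¹) = _
      calc t * (g⁻¹ * b * g⁻¹⁻¹) = g⁻¹ * (g * t * g⁻¹ * b) * g := by group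
        _ = _ := by rw [← e]; group
    have h1 := kn.idx2 (cj g⁻¹ B)
      (fun b hb => tc.cN (mem_centralizer_singleton_iff.2 (hc b hb).eq)) hs
    rw [H67.card_cj] at h1
    have h2 : cj g⁻¹ B ⊓ (L ⊔ C[L]) ≠ ⊥ := by
      intro h
      rw [h, card_bot] at h1
      omega
    obtain ⟨⟨b, hb, hb'⟩, h3⟩ := ne_bot_iff_exists_ne_one.1 h2
    obtain ⟨j, hj, h4, e | e⟩ := inner hM.zL tc hb' (hc b hb) (hs b hb)
    · exact ⟨j, hj, h4, fun h => h3 (Subtype.ext (e.trans h)), e ▸ hD b hb⟩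
    · have h5 := hD b hb
      rw [e, ← mul_assoc, t2, one_mul] at h5
      exact absurd hj (noL _ h5)
  obtain ⟨j, hj, h2, h1, a, ha⟩ := k1
  obtain ⟨l, hl, hz⟩ := kn.cls j hj h2
  have hz1 : l * j * l⁻¹ ≠ 1 := fun h => h1 (by
    rw [mul_inv_eq_one, mul_eq_left] at h; exact h)
  have hzD : t * (l * j * l⁻¹) ∈ Dt t := ⟨l * a, by
    calc t * (l * j * l⁻¹) = l * (t * j) * l⁻¹ := by
          rw [← mul_assoc, ← mul_assoc, ← (comC tc.tc hl).eq]; group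
      _ = _ := by rw [ha]; group⟩
  refine ⟨fun k hk hkt ⟨n, hn⟩ => ?_, _, hz, hz1, hzD⟩
  refine (root tc hk hkt hn).resolve_right ?_
  rintro ⟨r, hr, hr2⟩
  obtain ⟨p, hp, e⟩ := nw _ hz hzD
  generalize l * j * l⁻¹ = z at hz hz1 e
  have hW : r ∈ C[zpowers t ⊔ Up x] := by
    have : zpowers t ⊔ Up x ≤ C1[r] := by
      refine sup_le (zpowers_le.2 (mem_centralizer_singleton_iff.2 ?_)) fun u hu =>
        mem_centralizer_singleton_iff.2 (comC hr (kp.syl.1 hu)).eq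
      rw [← hr2, mul_assoc]
    exact mem_centralizer_iff.2 fun w hw => mem_centralizer_singleton_iff.1 (this hw)
  have hW' : p * r * p⁻¹ ∈ C[zpowers t ⊔ Up x] :=
    (mem_normalizer_iff.1 (nc _ hp) r).1 hW
  have hA : ∀ w ∈ A3 x 2, Commute w (p * r * p⁻¹) := fun w hw =>
    comC hW' (mem_sup_right (mem_sup_left hw))
  obtain ⟨w, hw, k', hk', e'⟩ := kn.cA 2 (p * r * p⁻¹)
    ⟨tc.cN (mem_centralizer_singleton_iff.2 (comC hW' (mem_sup_left (mem_zpowers t))).symm.eq),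
      mem_centralizer_iff.2 fun w hw => (hA w (mem_sup_left (mem_sup_right hw))).eq⟩
    fun w hw => by
      rw [commutatorElement_eq_one_iff_commute.2 (hA w hw).symm]
      exact one_mem _
  obtain ⟨a1, a2, a3, rfl⟩ := (kp.memA 2 w).1 hw
  have sq1 : ∀ i a, x i a * x i a = 1 := fun i a => by
    have h0 : x i 0 = 1 := by
      have := hM.pin.add i 0 0
      rwa [add_zero, left_eq_mul] at this
    rw [← hM.pin.add, ← two_mul, hM.pin.two, zero_mul, h0]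
  have w2 : x (2 - 1) a1 * x 2 a2 * x (2 + 1) a3 * (x (2 - 1) a1 * x 2 a2 * x (2 + 1) a3) = 1 := by
    have c1 : Commute (x (2 - 1) a1) (x 2 a2) := hM.pin.c1 1 a1 a2
    have c2 : Commute (x (2 - 1) a1) (x (2 + 1) a3) := hM.pin.c2 1 a1 a3
    have c3 : Commute (x 2 a2) (x (2 + 1) a3) := hM.pin.c1 2 a2 a3
    rw [← sq, (c2.mul_left c3).mul_pow, c1.mul_pow, sq, sq, sq, sq1, sq1, sq1]
    simp
  have hwL := mul_mem (mul_mem (xL (2 - 1) a1) (xL 2 a2)) (xL (2 + 1) a3)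
  generalize x (2 - 1) a1 * x 2 a2 * x (2 + 1) a3 = w at w2 hwL e'
  have h5 : t * z = k' * k' := by
    rw [← e, ← hr2, ← conj_mul, e', ← sq, (comC hk' hwL).mul_pow, sq, sq, w2, one_mul]
  have hzL : z ∈ L := by
    obtain ⟨b, c, rfl⟩ := (kp.memZ z).1 hz
    exact mul_mem (xL _ _) (xL _ _)
  refine hz1 (mem_bot.1 (hM.zL ▸ (mem_inf.2 ⟨hzL, ?_⟩ : z ∈ Z[L])))
  rw [eq_inv_mul_of_mul_eq h5]
  exact mul_mem (inv_mem tc.tc) (mul_mem hk' hk')

end Cfsg.Agent.H80.S4StA2
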