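import Cfsg.Agent.H79.RbDefs

/-! Project RB, piece Mon. -/

set_option autoImplicit false

open Cfsg Equiv Finset

namespace Cfsg.Agent.H80.RbMon

open Cfsg.Agent.H79.RB Cfsg.Agent.H19

/-- the monomial of a multiset -/
noncomputable def mm (μ : Multiset ℕ) : ℕ →₀ ℕ := Multiset.toFinsupp (μ.map (· / 2))

theorem mm_cons (r : ℕ) (μ : Multiset ℕ) : mm (r ::ₘ μ) = mm μ + Finsupp.single (r / 2) 1 := by
  rw [mm, mm, Multiset.map_cons, ← Multiset.singleton_add, Multiset.toFinsupp_add,
    Multiset.toFinsupp_singleton, add_comm]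

theorem mm_apply {μ : Multiset ℕ} (h : ∀ r ∈ μ, Odd r) (i : ℕ) : mm μ i = μ.count (2 * i + 1) := by
  induction μ using Multiset.induction_on with
  | empty => simp [mm]
  | cons r μ ih =>
    obtain ⟨k, rfl⟩ := h r (Multiset.mem_cons_self _ _)
    rw [mm_cons, Finsupp.add_apply, ih fun s hs => h s (Multiset.mem_cons_of_mem hs),
      Multiset.count_cons, Finsupp.single_apply]
    congr 1
    exact if_congr (by omega) rfl rfl

theorem wt_mm {μ : Multiset ℕ} (h : ∀ r ∈ μ, Odd r) : wt (mm μ) = μ.sum := by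
  induction μ using Multiset.induction_on with
  | empty => simp [mm, wt]
  | cons r μ ih =>
    obtain ⟨k, rfl⟩ := h r (Multiset.mem_cons_self _ _)
    rw [mm_cons, wt_add, ih fun s hs => h s (Multiset.mem_cons_of_mem hs), wt_single,
      Multiset.sum_cons]
    omega

theorem nrm_add_single (m : ℕ →₀ ℕ) (i : ℕ) :
    nrm (m + Finsupp.single i 1) = nrm m * (((2 * i + 1 : ℕ) : ℂ) / 2 * ((m i + 1 : ℕ) : ℂ)) := by
  have key : ∀ m' : ℕ →₀ ℕ, nrm m' =
      ((((2 * i + 1 : ℕ) : ℂ) / 2) ^ m' i * ((m' i).factorial : ℂ)) * nrm (m'.erase i) := by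
    intro m'
    by_cases h : i ∈ m'.support
    · rw [nrm, nrm, ← Finsupp.mul_prod_erase m' i _ h]
    · rw [Finsupp.erase_of_notMem_support h, Finsupp.notMem_support_iff.1 h]
      simp
  rw [key m, key (m + _), Finsupp.erase_add, Finsupp.erase_single, add_zero, Finsupp.add_apply,
    Finsupp.single_eq_same, Nat.factorial_succ, pow_succ]
  push_cast
  ring

theorem nrm_mm {μ : Multiset ℕ} (h : ∀ r ∈ μ, Odd r) :
    nrm (mm μ) * 2 ^ Multiset.card μ = zM μ := by
  induction μ using Multiset.induction_on with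
  | empty => simp [mm, nrm, zM_zero]
  | cons r μ ih =>
    obtain ⟨k, rfl⟩ := h r (Multiset.mem_cons_self _ _)
    have h' : ∀ s ∈ μ, Odd s := fun s hs => h s (Multiset.mem_cons_of_mem hs)
    rw [mm_cons, nrm_add_single, zM_cons, show (2 * k + 1) / 2 = k by omega, mm_apply h',
      Multiset.card_cons, pow_succ]
    push_cast
    rw [← ih h']
    ring

theorem mm_inj {μ ν : Multiset ℕ} (h : ∀ r ∈ μ, Odd r) (h' : ∀ r ∈ ν, Odd r) (e : mm μ = mm ν) :
    μ = ν := by
  ext r
  rcases Nat.even_or_odd r with hr | ⟨k, rfl⟩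
  · rw [Multiset.count_eq_zero.2 fun x => Nat.not_odd_iff_even.2 hr (h r x),
      Multiset.count_eq_zero.2 fun x => Nat.not_odd_iff_even.2 hr (h' r x)]
  · rw [← mm_apply h, ← mm_apply h', e]

theorem cyc_via {α β : Type} [Fintype α] [DecidableEq α] [Fintype β] [DecidableEq β]
    (σ : Perm α) (ι : α ↪ β) : (σ.viaEmbedding ι).cycleType = σ.cycleType := by
  unfold Perm.viaEmbedding
  exact @Perm.cycleType_extendDomain _ _ _ _ _ _ _ (_) _ _

theorem sign_via {α β : Type} [Fintype α] [DecidableEq α] [Fintype β] [DecidableEq β]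
    (σ : Perm α) (ι : α ↪ β) : Perm.sign (σ.viaEmbedding ι) = Perm.sign σ := by
  unfold Perm.viaEmbedding
  exact @Perm.sign_extendDomain _ _ _ _ _ _ _ _ (_) _

theorem monStmt : MonStmt := by
  refine ⟨fun n σ h => ⟨?_, nrm_mm h, mm_apply h, fun σ' h' e => typ_eq_iff.1 (mm_inj h h' e)⟩,
    fun n m hm => ?_, fun n => ⟨?_, ?_⟩, fun a b σ ρ => ?_⟩
  · exact (wt_mm h).trans ((typ_sum σ).trans (Fintype.card_fin n))
  · have h1 : ∀ r ∈ (Finsupp.toMultiset m).map (2 * · + 1), Odd r := by
      intro r hr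
      obtain ⟨k, -, rfl⟩ := Multiset.mem_map.1 hr
      exact ⟨k, rfl⟩
    have h2 : mm ((Finsupp.toMultiset m).map (2 * · + 1)) = m := by
      rw [mm, Multiset.map_map, Multiset.map_congr rfl (g := id) fun x _ => by
        simp only [Function.comp_apply, id]; omega, Multiset.map_id, Finsupp.toMultiset_toFinsupp]
    obtain ⟨σ, hσ⟩ := exists_typ_eq (α := Fin n) (μ := (Finsupp.toMultiset m).map (2 * · + 1))
      (mem_Par.2 ⟨by rw [← wt_mm h1, h2, hm, Fintype.card_fin], fun r hr => (h1 r hr).pos⟩)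
    exact ⟨σ, fun r hr => h1 r (hσ ▸ hr), by rw [← h2, ← hσ]; rfl⟩
  · intro r hr
    rw [typ_one] at hr
    rw [Multiset.eq_of_mem_replicate hr]
    exact odd_one
  · ext i
    rw [mon, typ_one, Multiset.map_replicate, Multiset.toFinsupp_apply, Multiset.count_replicate,
      Finsupp.single_apply, Fintype.card_fin]
  · have hd : (σ.viaEmbedding (Fin.castAddEmb b)).Disjoint (ρ.viaEmbedding (Fin.natAddEmb a)) := by
      intro x
      by_cases h : x ∈ Set.range (Fin.castAddEmb b : Fin a ↪ Fin (a + b))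
      · refine Or.inr (Perm.viaEmbedding_apply_of_notMem _ _ _ ?_)
        obtain ⟨i, rfl⟩ := h
        rintro ⟨j, hj⟩
        have := congrArg Fin.val hj
        simp at this
        omega
      · exact Or.inl (Perm.viaEmbedding_apply_of_notMem _ _ _ h)
    refine ⟨?_, hd, sign_via _ _, sign_via _ _⟩
    have h1 : σ.cycleType.sum ≤ a := by simpa using σ.sum_cycleType_le
    have h2 : ρ.cycleType.sum ≤ b := by simpa using ρ.sum_cycleType_le
    rw [typ_eq, typ_eq, typ_eq, hd.cycleType_mul, cyc_via, cyc_via, Multiset.sum_add,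
      add_add_add_comm, ← Multiset.replicate_add]
    simp only [Fintype.card_fin]
    congr 2
    omega

end Cfsg.Agent.H80.RbMon
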