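import Cfsg.Agent.H79.RbDefs
import Cfsg.Agent.H9.Taussky

/-! Project RB, piece Sm16: groups of order 16 with large derived subgroup. -/

set_option autoImplicit false

namespace Cfsg.Agent.H80.RbSm16

open Cfsg.Agent.H79.RB Cfsg.Agent.H9 Subgroup

theorem sm16Stmt : Sm16Stmt := by
  intro P _ h16 h4
  haveI : Finite P := Nat.finite_of_card_ne_zero (by omega)
  have hp : IsPGroup 2 P := IsPGroup.of_card (n := 4) h16
  have h1 := card_commutator_le_of_card (G := P) (p := 2) (n := 2) h16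
  have h2 := (commutator P).index_mul_card
  have h3 : Nat.card (commutator P) = 4 := by omega
  rw [h3, h16] at h2
  obtain h | ⟨a, b, n, h⟩ := taussky hp (by omega)
  · omega
  refine ⟨by rw [h.center_eq, Nat.card_zpowers, h.orderOf_z], fun D hD hc => ?_⟩
  by_cases hle : D ≤ zpowers a
  · exact Subgroup.isCyclic_of_le hle
  exfalso
  obtain ⟨w, hw, hw'⟩ := SetLike.not_le_iff_exists.1 hle
  have h' := h.of_mem (mem_top w) hw'
  have hs : (D : Set P) ⊆ {1, a ^ 2 ^ n, w, a ^ 2 ^ n * w} := fun g hg =>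
    (h'.commute_b_iff' (mem_top g)).1 (congrArg Subtype.val (hc.1.1 ⟨w, hw⟩ ⟨g, hg⟩))
  have h5 := Set.ncard_le_ncard hs
  have h6 : ({1, a ^ 2 ^ n, w, a ^ 2 ^ n * w} : Set P).ncard ≤ 4 :=
    (Set.ncard_insert_le _ _).trans (Nat.succ_le_succ ((Set.ncard_insert_le _ _).trans
      (Nat.succ_le_succ ((Set.ncard_insert_le _ _).trans (by simp)))))
  have h7 : (D : Set P).ncard = 8 := hD
  omega

end Cfsg.Agent.H80.RbSm16
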