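import Mathlib
import Cfsg.Agent.H9.C3Defs

/-!
Self-centralizing elementary abelian subgroups of order 16 without transvections: the
centralizer of an invariant four-group in a 2-subgroup of the normalizer.
-/

set_option autoImplicit false

namespace Cfsg.Agent.H80.C3R

open Subgroup Cfsg.Agent.H62 Cfsg.Agent.H9.C3

universe u

variable {G : Type u} [Group G]

theorem conj_mem {T : Subgroup G} {r a : G} (hr : r ∈ Nm T) (ha : a ∈ T) : r * a * r⁻¹ ∈ T :=
  (mem_normalizer_iff.1 hr a).1 ha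

/-- The commutator map `a ↦ r a r⁻¹ a⁻¹` on an elementary abelian group. -/
def dH {T : Subgroup G} (hT : EA T) {r : G} (hr : r ∈ Nm T) : T →* T :=
  MonoidHom.mk' (fun a => ⟨r * a * r⁻¹ * (a : G)⁻¹, T.mul_mem (conj_mem hr a.2) (T.inv_mem a.2)⟩)
    (fun a b => by
      apply Subtype.ext
      have h1 := hT.comm (conj_mem hr b.2) (T.inv_mem a.2)
      have h2 := hT.comm (T.inv_mem b.2) (T.inv_mem a.2)
      simp only [coe_mul]
      calc r * (a * b) * r⁻¹ * ((a : G) * b)⁻¹
          = r * a * r⁻¹ * (r * b * r⁻¹) * ((b : G)⁻¹ * (a : G)⁻¹) := by group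
        _ = r * a * r⁻¹ * ((r * b * r⁻¹) * (a : G)⁻¹) * (b : G)⁻¹ := by rw [h2]; group
        _ = r * a * r⁻¹ * (a : G)⁻¹ * (r * b * r⁻¹ * (b : G)⁻¹) := by rw [h1]; group)

theorem dH_apply {T : Subgroup G} (hT : EA T) {r : G} (hr : r ∈ Nm T) (a : T) :
    (dH hT hr a : G) = r * a * r⁻¹ * (a : G)⁻¹ := rfl

theorem dH_sq {T : Subgroup G} (hT : EA T) {r : G} (hr : r ∈ Nm T) (a : T) :
    dH hT (mul_mem hr hr) a = dH hT hr (dH hT hr a) := by
  apply Subtype.ext
  simp only [dH_apply]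
  have h1 : (r * a * r⁻¹) * (r * a * r⁻¹) = 1 := hT _ (conj_mem hr a.2)
  have h2 : (a : G)⁻¹ = a := hT.inv a.2
  have h3 := hT.comm (conj_mem hr a.2) a.2
  have h4 : (r * a * r⁻¹)⁻¹ = r * a * r⁻¹ := hT.inv (conj_mem hr a.2)
  rw [h2, mul_inv_rev (r * a * r⁻¹) (a : G), h2, h4, ← h3]
  calc r * r * a * (r * r)⁻¹ * a
      = r * r * a * (r * r)⁻¹ * ((r * a * r⁻¹) * (r * a * r⁻¹)) * a := by rw [h1]; group
    _ = r * (r * a * r⁻¹ * a) * r⁻¹ * (r * a * r⁻¹ * a) := by group

theorem mem_ker_dH {T : Subgroup G} (hT : EA T) {r : G} (hr : r ∈ Nm T) (a : T) :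
    a ∈ (dH hT hr).ker ↔ r * a = a * r := by
  rw [MonoidHom.mem_ker, Subtype.ext_iff, dH_apply]
  simp only [OneMemClass.coe_one]
  constructor
  · intro h
    calc r * a = (r * a * r⁻¹ * (a : G)⁻¹) * (a * r) := by group
      _ = a * r := by rw [h, one_mul]
  · intro h
    rw [h]; group

theorem card_ker_dH {T : Subgroup G} (hT : EA T) {r : G} (hr : r ∈ Nm T) :
    Nat.card (dH hT hr).ker = Nat.card (T ⊓ C1 r : Subgroup G) := by
  have : (dH hT hr).ker = (T ⊓ C1 r).subgroupOf T := by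
    ext a
    rw [mem_ker_dH, mem_subgroupOf, mem_inf, mem_centralizer_singleton_iff]
    exact ⟨fun h => ⟨a.2, h.symm⟩, fun h => h.2.symm⟩
  rw [this]
  exact Nat.card_congr (subgroupOfEquivOfLe inf_le_left).toEquiv

theorem ker_mul_range {A : Type*} [Group A] (D : A →* A) :
    Nat.card D.ker * Nat.card D.range = Nat.card A := by
  rw [← index_ker, card_mul_index]

/-- A nilpotent endomorphism at least halves an invariant subgroup. -/
theorem half {A : Type*} [Group A] [Finite A] (D : A →* A) (n : ℕ) (hn : ∀ a, D^[n] a = 1)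
    (B : Subgroup A) (hB : B.map D ≤ B) : B = ⊥ ∨ 2 * Nat.card (B.map D) ≤ Nat.card B := by
  by_cases hk : (D.comp B.subtype).ker = ⊥
  · left
    have key : ∀ m : ℕ, ∀ b ∈ B, D^[m] b = 1 → b = 1 := by
      intro m
      induction m with
      | zero => intro b _ h; simpa using h
      | succ m ih =>
        intro b hb h
        rw [Function.iterate_succ_apply] at h
        have h1 := ih _ (hB (mem_map_of_mem D hb)) h
        have : (⟨b, hb⟩ : B) ∈ (D.comp B.subtype).ker := by
          rw [MonoidHom.mem_ker]; exact h1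
        rw [hk, mem_bot] at this
        exact congrArg Subtype.val this
    exact (eq_bot_iff_forall _).2 fun b hb => key n b hb (hn b)
  · right
    have h1 : Nat.card (D.comp B.subtype).ker * Nat.card (D.comp B.subtype).range = Nat.card B := by
      rw [← index_ker, card_mul_index]
    rw [MonoidHom.range_comp, range_subtype] at h1
    have h2 : 1 < Nat.card (D.comp B.subtype).ker := (one_lt_card_iff_ne_bot _).2 hk
    nlinarith

theorem dH_pow {T : Subgroup G} (hT : EA T) (k : ℕ) :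
    ∀ {r : G} (hr : r ∈ Nm T), r ^ 2 ^ k = 1 → ∀ a, (dH hT hr)^[2 ^ k] a = 1 := by
  induction k with
  | zero =>
    intro r hr h a
    have : r = 1 := by simpa using h
    subst this
    apply Subtype.ext
    simp [dH_apply]
  | succ k ih =>
    intro r hr h a
    have h1 : (r * r) ^ 2 ^ k = 1 := by rw [← h, ← pow_two, ← pow_mul, pow_succ']
    have h2 := ih (mul_mem hr hr) h1 a
    have h3 : ⇑(dH hT (mul_mem hr hr)) = (⇑(dH hT hr))^[2] := funext fun b => dH_sq hT hr b
    rw [h3, ← Function.iterate_mul, ← pow_succ'] at h2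
    exact h2

variable [Finite G]

/-- A 2-element with a small commutator has its square in `T`. -/
theorem sq_mem {T : Subgroup G} (h : Free T) {r : G} (hr : r ∈ Nm T) {k : ℕ} (hk : r ^ 2 ^ k = 1)
    (h4 : Nat.card (dH h.ea hr).range ≤ 4) : r * r ∈ T := by
  set D := dH h.ea hr with hD
  have hn := dH_pow h.ea k hr hk
  have hB1 : D.range.map D ≤ D.range := map_le_range _ _
  have hB2 : (D.range.map D).map D ≤ D.range.map D := map_mono hB1
  have c2 : Nat.card (D.range.map D) ≤ 2 := by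
    rcases half D _ hn _ hB1 with h0 | h0
    · rw [h0]; simp
    · omega
  have c3 : (D.range.map D).map D = ⊥ := by
    rcases half D _ hn _ hB2 with h0 | h0
    · rw [h0]; simp
    · exact eq_bot_of_card_le _ (by omega)
  have hr2 : r * r ∈ Nm T := mul_mem hr hr
  have h4T : r * r * (r * r) ∈ T := by
    apply h.cen
    rw [mem_centralizer_iff]
    intro a ha
    have : (⟨a, ha⟩ : T) ∈ (dH h.ea (mul_mem hr2 hr2)).ker := by
      rw [MonoidHom.mem_ker, dH_sq h.ea hr2, dH_sq h.ea hr, dH_sq h.ea hr]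
      have h3 : D (D (D ⟨a, ha⟩)) ∈ (D.range.map D).map D :=
        mem_map_of_mem D (mem_map_of_mem D ⟨_, rfl⟩)
      rw [c3, mem_bot] at h3
      show D (D (D (D ⟨a, ha⟩))) = 1
      rw [h3, map_one]
    exact ((mem_ker_dH _ _ _).1 this).symm
  by_contra hn2
  have f := h.free _ hr2 hn2 h4T
  rw [← card_ker_dH h.ea hr2] at f
  have e := ker_mul_range (dH h.ea hr2)
  have hle : (dH h.ea hr2).range ≤ D.range.map D := by
    rintro _ ⟨a, rfl⟩
    rw [dH_sq h.ea hr]
    exact mem_map_of_mem D ⟨_, rfl⟩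
  have := (card_le_of_le hle).trans c2
  rw [h.card] at e
  nlinarith

omit [Finite G] in
theorem range_le_ker {T : Subgroup G} (hT : EA T) {r : G} (hr : r ∈ Nm T) (h2 : r * r ∈ T) :
    (dH hT hr).range ≤ (dH hT hr).ker := by
  rintro _ ⟨a, rfl⟩
  rw [MonoidHom.mem_ker, ← dH_sq]
  exact (mem_ker_dH hT (mul_mem hr hr) a).2 (hT.comm h2 a.2)

/-- The index bound from the commutators with one element. -/
theorem relIndex_le (M K Z : Subgroup G) (a : G) (hZ : ∀ r ∈ M, r * a * r⁻¹ * a⁻¹ ∈ Z)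
    (hk : ∀ r ∈ M, r * a = a * r → r ∈ K) : K.relIndex M ≤ Nat.card Z := by
  unfold relIndex index
  refine Nat.card_le_card_of_injective
    (fun q => (⟨(q.out : M) * a * ((q.out : M) : G)⁻¹ * a⁻¹, hZ _ (q.out).2⟩ : Z)) ?_
  intro q q' e
  have e1 : ((q.out : M) : G) * a * ((q.out : M) : G)⁻¹ =
      ((q'.out : M) : G) * a * ((q'.out : M) : G)⁻¹ := by
    have := congrArg Subtype.val e
    simpa using this
  rw [← q.out_eq', ← q'.out_eq', QuotientGroup.eq, mem_subgroupOf]
  apply hk _ ((q.out)⁻¹ * q'.out).2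
  simp only [coe_mul, coe_inv]
  calc ((q.out : M) : G)⁻¹ * (q'.out : M) * a
      = ((q.out : M) : G)⁻¹ * ((q'.out : M) * a * ((q'.out : M) : G)⁻¹) * (q'.out : M) := by group
    _ = a * (((q.out : M) : G)⁻¹ * (q'.out : M)) := by rw [← e1]; group

omit [Finite G] in
theorem card_subgroupOf {Z T : Subgroup G} (h : Z ≤ T) :
    Nat.card (Z.subgroupOf T) = Nat.card Z :=
  Nat.card_congr (subgroupOfEquivOfLe h).toEquiv

/-- An element outside `T` that centralizes `Z`: its fixed points on `T` are `Z`. -/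
theorem ker_eq {T Z : Subgroup G} (h : Free T) (hZ : Z ≤ T) (c4 : Nat.card Z = 4) {r : G}
    (hr : r ∈ Nm T) {k : ℕ} (hk : r ^ 2 ^ k = 1) (hc : r ∈ centralizer (Z : Set G)) (hT : r ∉ T) :
    r * r ∈ T ∧ Z.subgroupOf T = (dH h.ea hr).ker := by
  have hle : Z.subgroupOf T ≤ (dH h.ea hr).ker := by
    intro a ha
    rw [mem_ker_dH]
    exact (mem_centralizer_iff.1 hc a ha).symm
  have c1 := card_le_of_le hle
  rw [card_subgroupOf hZ, c4] at c1
  have e := ker_mul_range (dH h.ea hr)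
  rw [h.card] at e
  have h2 : r * r ∈ T := sq_mem h hr hk (by nlinarith)
  have f := h.free _ hr hT h2
  rw [← card_ker_dH h.ea hr] at f
  exact ⟨h2, eq_of_le_of_card_ge hle (by rw [card_subgroupOf hZ, c4]; exact f)⟩

theorem cent_iff {T Z : Subgroup G} (h : Free T) (hZ : Z ≤ T) (c4 : Nat.card Z = 4) {r : G}
    (hr : r ∈ Nm T) {k : ℕ} (hk : r ^ 2 ^ k = 1) :
    r ∈ centralizer (Z : Set G) ↔ ∀ a ∈ T, r * a * r⁻¹ * a⁻¹ ∈ Z := by
  constructor
  · intro hc a ha
    by_cases hT : r ∈ T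
    · rw [h.ea.comm hT ha]; simp
    · obtain ⟨h2, hk⟩ := ker_eq h hZ c4 hr hk hc hT
      have : dH h.ea hr ⟨a, ha⟩ ∈ Z.subgroupOf T := by
        rw [hk]; exact range_le_ker h.ea hr h2 ⟨_, rfl⟩
      exact this
  · intro hd
    rw [mem_centralizer_iff]
    intro z hz
    by_cases hT : r ∈ T
    · exact h.ea.comm (hZ hz) hT
    have hle : (dH h.ea hr).range ≤ Z.subgroupOf T := by
      rintro _ ⟨a, rfl⟩
      exact hd a a.2
    have c1 := card_le_of_le hle
    rw [card_subgroupOf hZ, c4] at c1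
    have h2 : r * r ∈ T := sq_mem h hr hk c1
    have f := h.free _ hr hT h2
    rw [← card_ker_dH h.ea hr] at f
    have e := ker_mul_range (dH h.ea hr)
    rw [h.card] at e
    have heq : (dH h.ea hr).range = Z.subgroupOf T :=
      eq_of_le_of_card_ge hle (by rw [card_subgroupOf hZ, c4]; nlinarith)
    have : (⟨z, hZ hz⟩ : T) ∈ (dH h.ea hr).ker := by
      apply range_le_ker h.ea hr h2
      rw [heq]; exact hz
    exact ((mem_ker_dH _ _ _).1 this).symm

theorem exists_not_mem {A B : Subgroup G} (h : Nat.card A < Nat.card B) : ∃ b ∈ B, b ∉ A := by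
  by_contra hn
  push Not at hn
  exact absurd (card_le_of_le (show B ≤ A from hn)) (by omega)

/-- R. -/
theorem rs : RStmt.{u} := by
  intro G _ _ T S Z h hS hTS hSN hZ c4 hSZ
  have h2 : ∀ r ∈ S, ∃ k : ℕ, r ^ 2 ^ k = 1 := by
    intro r hr
    obtain ⟨k, hk⟩ := hS ⟨r, hr⟩
    exact ⟨k, by simpa using congrArg Subtype.val hk⟩
  have hiff : ∀ r ∈ S, r ∈ centralizer (Z : Set G) ↔ ∀ a ∈ T, r * a * r⁻¹ * a⁻¹ ∈ Z := by
    intro r hr
    obtain ⟨k, hk⟩ := h2 r hr
    exact cent_iff h hZ c4 (hSN hr) hk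
  refine ⟨?_, ?_, hiff⟩
  · obtain ⟨a, haT, haZ⟩ := exists_not_mem (A := Z) (B := T) (by rw [c4, h.card]; norm_num)
    rw [← c4]
    refine relIndex_le _ _ _ a (fun r hr => (hiff r hr.1).1 hr.2 a haT) ?_
    intro r hr hc
    by_contra hT
    obtain ⟨k, hk⟩ := h2 r hr.1
    obtain ⟨-, hk⟩ := ker_eq h hZ c4 (hSN hr.1) hk hr.2 hT
    have : (⟨a, haT⟩ : T) ∈ Z.subgroupOf T := by
      rw [hk, mem_ker_dH]; exact hc
    exact haZ this
  · have hne : Z ≠ ⊥ := by
      intro h0; rw [h0] at c4; simp at c4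
    obtain ⟨z, hz, hz1, hzc⟩ := exists_central hS (hZ.trans hTS) hne
      (fun s hs y hy => conj_mem (hSZ hs) hy)
    have hz2 : z * z = 1 := h.ea z (hZ hz)
    have o2 : orderOf z = 2 := orderOf_eq_prime (by rw [pow_two, hz2]) hz1
    have cz : Nat.card (zpowers z) = 2 := by rw [Nat.card_zpowers, o2]
    have hle : zpowers z ≤ Z := zpowers_le_of_mem hz
    have hidx : ((zpowers z).subgroupOf Z).index = 2 := by
      have := card_mul_index ((zpowers z).subgroupOf Z)
      rw [card_subgroupOf hle, cz, c4] at this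
      omega
    have hc0 : ∀ s ∈ S, ∀ y ∈ zpowers z, s * y = y * s := by
      rintro s hs _ ⟨n, rfl⟩
      exact ((show Commute s z from hzc s hs).zpow_right n).eq
    have hmul : ∀ a ∈ Z, ∀ b ∈ Z, a ∉ zpowers z → b ∉ zpowers z → a * b ∈ zpowers z := by
      intro a ha b hb ha' hb'
      have := (mul_mem_iff_of_index_two hidx (a := ⟨a, ha⟩) (b := ⟨b, hb⟩)).2
        (iff_of_false ha' hb')
      exact this
    obtain ⟨w, hw, hwz⟩ := exists_not_mem (A := zpowers z) (B := Z) (by rw [c4, cz]; norm_num)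
    rw [← cz]
    refine relIndex_le _ _ _ w ?_ ?_
    · intro r hr
      refine hmul _ (conj_mem (hSZ hr) hw) _ (Z.inv_mem hw) ?_ (fun hh => hwz (inv_mem_iff.1 hh))
      intro hh
      apply hwz
      have e := hc0 r hr _ hh
      have : w = r * w * r⁻¹ := by
        calc w = r⁻¹ * (r * w * r⁻¹ * r) := by group
          _ = r * w * r⁻¹ := by rw [← e]; group
      rw [this]; exact hh
    · intro r hr hc
      rw [mem_centralizer_iff]
      intro y hy
      by_cases hy0 : y ∈ zpowers z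
      · exact (hc0 r hr y hy0).symm
      · have e := hc0 r hr _ (hmul y hy w hw hy0 hwz)
        apply mul_right_cancel (b := w)
        calc y * r * w = y * w * r := by rw [mul_assoc, hc, mul_assoc]
          _ = r * y * w := by rw [← e, mul_assoc]

end Cfsg.Agent.H80.C3R
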