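import Cfsg.Agent.H50.E72Defs

/-!
# Project E72, piece SPAN27
-/

set_option autoImplicit false
set_option maxRecDepth 100000

namespace Cfsg.Agent.H80.E72Span

open Cfsg.Agent.H50.E72 Module Multiplicative
open scoped Matrix

universe u

/-- The value of the basic character. -/
noncomputable def cv (ω : Kˣ) (a : ZMod 3) : K := ((ω ^ a.val : Kˣ) : K)

theorem cv_zero (ω : Kˣ) : cv ω 0 = 1 := by simp [cv]

theorem cv_add {ω : Kˣ} (h : IsPrimitiveRoot ω 3) (a b : ZMod 3) :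
    cv ω (a + b) = cv ω a * cv ω b := by
  rw [cv, cv, cv, ← Units.val_mul, ← pow_add, ZMod.val_add, ← pow_eq_pow_mod _ h.pow_eq_one]

theorem cv_one {ω : Kˣ} (h : IsPrimitiveRoot ω 3) : cv ω 1 ≠ 1 := by
  intro e
  have : ω ^ 1 = 1 := Units.ext e
  exact h.pow_ne_one_of_pos_of_lt (by norm_num) (by norm_num) this

theorem c27 : ((Fintype.card E3 : ℕ) : K) = 1 := by
  have : Fintype.card E3 = 2 * 13 + 1 := by simp
  rw [this, Nat.cast_add, Nat.cast_mul, CharP.cast_eq_zero K 2]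
  simp

theorem ex_dual : ∀ e : E3, e ≠ 0 → ∃ χ : E3, -(χ ⬝ᵥ e) = 1 := by decide

theorem orth {ω : Kˣ} (h : IsPrimitiveRoot ω 3) (e : E3) :
    ∑ χ : E3, cv ω (-(χ ⬝ᵥ e)) = if e = 0 then 1 else 0 := by
  split_ifs with he
  · simp only [he, dotProduct_zero, neg_zero, cv_zero, Finset.sum_const, Finset.card_univ,
      nsmul_eq_mul, mul_one, c27]
  · obtain ⟨χ0, h0⟩ := ex_dual e he
    have k : ∑ χ : E3, cv ω (-(χ ⬝ᵥ e)) = cv ω 1 * ∑ χ : E3, cv ω (-(χ ⬝ᵥ e)) := by
      rw [Finset.mul_sum, ← Equiv.sum_comp (Equiv.addLeft χ0)]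
      refine Finset.sum_congr rfl fun χ _ => ?_
      rw [← cv_add h, Equiv.coe_addLeft, add_dotProduct, neg_add, h0]
    have : (1 - cv ω 1) * ∑ χ : E3, cv ω (-(χ ⬝ᵥ e)) = 0 := by rw [sub_mul, one_mul, ← k, sub_self]
    exact (mul_eq_zero.1 this).resolve_left (sub_ne_zero.2 (cv_one h).symm)

/-- The transpose of `m27`. -/
def mT (χ : E3) : E3 := ![χ 1, χ 2, χ 0 + χ 1]

theorem mT_dot : ∀ χ e : E3, χ ⬝ᵥ m27 e = mT χ ⬝ᵥ e := by decide +kernel

theorem m27_bij : Function.Bijective m27 := by decide +kernel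

theorem orb : ∀ χ ψ : E3, χ ≠ 0 → ψ ≠ 0 →
    ∃ k : Fin 13, ψ = mT^[k] χ ∨ ψ = mT^[k] (-χ) := by decide +kernel

section

variable {V : Type} [AddCommGroup V] [Module K V] {Γ : Type u} [Group Γ]

/-- The projection on a weight space. -/
noncomputable def pr (ω : Kˣ) (A : Γ →* End K V) (x : Multiplicative E3 →* Γ) (χ : E3) : End K V :=
  ∑ e : E3, cv ω (-(χ ⬝ᵥ e)) • A (x (ofAdd e))

variable {ω : Kˣ} {A : Γ →* End K V} {x : Multiplicative E3 →* Γ}

theorem pr_apply (χ : E3) (v : V) :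
    pr ω A x χ v = ∑ e : E3, cv ω (-(χ ⬝ᵥ e)) • A (x (ofAdd e)) v := by
  simp only [pr, LinearMap.sum_apply, LinearMap.smul_apply]

theorem pr_wt (h : IsPrimitiveRoot ω 3) (χ e' : E3) (v : V) :
    A (x (ofAdd e')) (pr ω A x χ v) = cv ω (χ ⬝ᵥ e') • pr ω A x χ v := by
  rw [pr_apply, map_sum, Finset.smul_sum, ← Equiv.sum_comp (Equiv.addLeft e')
    (fun e => cv ω (χ ⬝ᵥ e') • cv ω (-(χ ⬝ᵥ e)) • A (x (ofAdd e)) v)]
  refine Finset.sum_congr rfl fun e _ => ?_
  rw [map_smul, smul_smul, ← cv_add h, Equiv.coe_addLeft, dotProduct_add, ofAdd_add, map_mul,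
    map_mul, End.mul_apply, neg_add, add_neg_cancel_left]

theorem pr_sum (h : IsPrimitiveRoot ω 3) (v : V) : ∑ χ : E3, pr ω A x χ v = v := by
  simp only [pr_apply]
  rw [Finset.sum_comm]
  simp only [← Finset.sum_smul, orth h, ite_smul, one_smul, zero_smul, Finset.sum_ite_eq',
    Finset.mem_univ, if_true, ofAdd_zero, map_one, End.one_apply]

theorem pr_y {y : Γ} (hy : ∀ e, y * x (ofAdd e) * y⁻¹ = x (ofAdd (m27 e))) {v : V} (hv : A y v = v)
    (χ : E3) : A y (pr ω A x (mT χ) v) = pr ω A x χ v := by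
  rw [pr_apply, pr_apply, map_sum, ← m27_bij.sum_comp
    (fun e => cv ω (-(χ ⬝ᵥ e)) • A (x (ofAdd e)) v)]
  refine Finset.sum_congr rfl fun e _ => ?_
  rw [map_smul, mT_dot, ← hy]
  congr 1
  conv_rhs => rw [← hv, ← End.mul_apply, ← map_mul, inv_mul_cancel_right, map_mul, End.mul_apply]

theorem inv_fix {y : Γ} {v : V} (hv : A y v = v) : A y⁻¹ v = v := by
  conv_lhs => rw [← hv, ← End.mul_apply, ← map_mul, inv_mul_cancel, map_one, End.one_apply]

theorem pow_fix {y : Γ} {v : V} (hv : A y v = v) (k : ℕ) : A (y ^ k) v = v := by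
  induction k with
  | zero => rw [pow_zero, map_one, End.one_apply]
  | succ k ih => rw [pow_succ, map_mul, End.mul_apply, hv, ih]

theorem pr_iter {y : Γ} (hy : ∀ e, y * x (ofAdd e) * y⁻¹ = x (ofAdd (m27 e))) {v : V}
    (hv : A y v = v) {χ : E3} (h0 : pr ω A x χ v = 0) (k : ℕ) : pr ω A x (mT^[k] χ) v = 0 := by
  induction k with
  | zero => exact h0
  | succ k ih =>
    have := pr_y (ω := ω) hy hv (mT^[k] χ)
    rw [ih] at this
    have e := congrArg (A y⁻¹) this
    rwa [← End.mul_apply, ← map_mul, inv_mul_cancel, map_one, End.one_apply, map_zero,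
      ← Function.iterate_succ_apply' mT] at e

theorem onto [FiniteDimensional K V] {U W W' : Submodule K V} (f g : End K V) (hf : ∀ v, f v ∈ W)
    (hg : ∀ v, g v ∈ W') (inj : ∀ v ∈ U, f v = 0 → g v = 0 → v = 0)
    (d : finrank K U = finrank K W + finrank K W') : ∀ w ∈ W, ∃ v ∈ U, f v = w := by
  let θ : U →ₗ[K] W × W' :=
    ((f.domRestrict U).codRestrict _ fun v => hf _).prod
      ((g.domRestrict U).codRestrict _ fun v => hg _)
  have i : Function.Injective θ := by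
    rw [injective_iff_map_eq_zero]
    rintro ⟨v, hv⟩ h
    exact Subtype.ext (inj v hv (congrArg (fun z => (z.1 : V)) h) (congrArg (fun z => (z.2 : V)) h))
  have sur : Function.Surjective θ :=
    (LinearMap.injective_iff_surjective_of_finrank_eq_finrank (by rw [finrank_prod, d])).1 i
  intro w hw
  obtain ⟨⟨v, hv⟩, e⟩ := sur (⟨w, hw⟩, 0)
  exact ⟨v, hv, congrArg (fun z => (z.1 : V)) e⟩

end

theorem span27 : Span27Stmt.{u} := by
  intro π Γ _ φ x y t ω hω c hU hW hy hn hs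
  have cyx := c.yx
  set U := Fix π (Set.range (φ.comp x)) with hUd
  obtain ⟨A, hA⟩ : ∃ A : Γ →* End K (Fin 56 → K), ∀ g, A g = act π (φ g) :=
    ⟨(act π).comp φ, fun _ => rfl⟩
  have mU : ∀ v, v ∈ U ↔ ∀ e, A (x e) v = v := fun v => by
    rw [hUd, mem_Fix]
    simp only [hA]
    exact ⟨fun h e => h _ ⟨e, rfl⟩, by rintro h _ ⟨e, rfl⟩; exact h e⟩
  have mW : ∀ χ v, pr ω A x χ v ∈ wsp π ω (φ.comp x) χ := fun χ v => by
    rw [wsp, Submodule.mem_iInf]
    intro e
    rw [mem_eig, MonoidHom.comp_apply, ← hA]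
    exact pr_wt (A := A) (x := x) hω χ e v
  set S := Submodule.span K {w | ∃ g, ∃ v ∈ U, w = act π (φ g) v} with hS
  have inS : ∀ g, ∀ v ∈ U, A g v ∈ S := fun g v hv =>
    Submodule.subset_span ⟨g, v, hv, by rw [hA]⟩
  have key : ∀ χ, χ ≠ 0 → wsp π ω (φ.comp x) χ ≤ S := fun χ hχ => by
    have inj : ∀ v ∈ U, (pr ω A x χ * A t) v = 0 → (pr ω A x (-χ) * A t) v = 0 → v = 0 := by
      intro v hv h1 h2
      rw [End.mul_apply] at h1 h2
      have yv : A y v = v := by rw [hA]; exact hy v hv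
      have yt : A y (A t v) = A t v := by
        have : y * t = t * y⁻¹ := by
          calc y * t = y * (t * y * t⁻¹) * t * y⁻¹ := by group
            _ = t * y⁻¹ := by rw [c.ty]; group
        rw [← End.mul_apply, ← map_mul, this, map_mul, End.mul_apply, inv_fix yv]
      have all : ∀ ψ, ψ ≠ 0 → pr ω A x ψ (A t v) = 0 := fun ψ hψ => by
        obtain ⟨k, e | e⟩ := orb χ ψ hχ hψ
        · rw [e]; exact pr_iter (A := A) (x := x) (ω := ω) cyx yt h1 k
        · rw [e]; exact pr_iter (A := A) (x := x) (ω := ω) cyx yt h2 k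
      have tv : A t v = v := by
        rw [← pr_sum (A := A) (x := x) hω (A t v),
          Finset.sum_eq_single (f := fun ψ => pr ω A x ψ (A t v)) 0 (fun ψ _ h => all ψ h)
            fun h => absurd (Finset.mem_univ _) h, pr_apply]
        conv_rhs => rw [← hs v hv, ← Equiv.sum_comp ofAdd]
        refine Finset.sum_congr rfl fun e _ => ?_
        rw [zero_dotProduct, neg_zero, cv_zero, one_smul, ← hA, map_mul, End.mul_apply]
      have xv := (mU v).1 hv
      by_contra ne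
      refine hn ⟨v, ne, ?_⟩
      rintro _ ⟨g, rfl⟩
      rw [← hA]
      rcases c.bru g with ⟨e, k, rfl⟩ | ⟨e, e', k, rfl⟩ <;>
        simp only [map_mul, End.mul_apply, pow_fix yv, xv, tv]
    intro w hw
    obtain ⟨v, hv, h1⟩ := onto (W := wsp π ω (φ.comp x) χ) (W' := wsp π ω (φ.comp x) (-χ))
      (pr ω A x χ * A t) (pr ω A x (-χ) * A t) (fun v => by rw [End.mul_apply]; exact mW _ _)
      (fun v => by rw [End.mul_apply]; exact mW _ _) inj
      (by rw [hU, hW χ hχ, hW (-χ) (neg_ne_zero.2 hχ)]) w hw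
    rw [← h1, End.mul_apply, pr_apply]
    refine S.sum_mem fun e _ => S.smul_mem _ ?_
    rw [← End.mul_apply, ← map_mul]
    exact inS _ v hv
  refine eq_top_iff.2 fun v _ => ?_
  rw [← pr_sum (A := A) (x := x) hω v]
  refine S.sum_mem fun χ _ => ?_
  by_cases h : χ = 0
  · have : pr ω A x χ v ∈ U := (mU _).2 fun e => by
      have := pr_wt (A := A) (x := x) hω χ e.toAdd v
      rwa [h, zero_dotProduct, cv_zero, one_smul, ← h] at this
    have k := inS 1 _ this
    rwa [map_one, End.one_apply] at k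
  · exact key χ h (mW χ v)

end Cfsg.Agent.H80.E72Span
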