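import Cfsg.Agent.H6.E82Defs

/-! The Weyl group elements that double the representatives of the elements of order `65`. -/

set_option autoImplicit false
set_option maxRecDepth 100000

namespace Cfsg.Agent.H80.E82Datb

open Equiv Cfsg.Lie H37 H40 H34 H29 Cfsg.Agent.H6.E82

section
variable {D : ChevalleyDatum} {C : Cert D} {f : Fin D.nroots → ℤ} {s : ℕ} {a : List ℕ}

theorem rp_word (hs : 0 < s) {A : List (List ℤ)} (hA : A.length = D.rank ∧ ∀ i < D.rank,
    ∀ j < D.rank, gt A i j = D.cartan i (D.simple j)) (l : List (Fin D.rank)) (h : Rp C s a f)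
    (hf : IsAdd C.R f) :
    Rp C s ((l.map Fin.val).foldl (svN s A) a) fun r => f (C.S.word l r) := by
  induction l generalizing a f with
  | nil => exact h
  | cons i l ih =>
    have h1 := ih (a := svN s A a i) (f := fun r => f (C.R.τ (C.R.simple i) r)) (fun j => by
      simp [svN, hA.1, cast_res hs dvd_rfl, hf.τ, ← h _, hA.2, RS.pair_simple_simple, C.A_eq])
      (hf.comp (C.R.τ_mem_W (C.R.simple i)))
    rw [RS.τ_simple] at h1
    rw [SignedSys.word_cons]
    exact h1

theorem dbl (hs : 0 < s) {A : List (List ℤ)} (hA : A.length = D.rank ∧ ∀ i < D.rank,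
    ∀ j < D.rank, gt A i j = D.cartan i (D.simple j)) (l : List (Fin D.rank)) (a : List ℕ)
    (h : ∀ j < D.rank, ((l.map Fin.val).foldl (svN s A) a).getD j 0 % s = 2 * a.getD j 0 % s)
    (r : Fin D.nroots) : (vN C a (C.S.word l r) : ZMod s) = 2 * vN C a r := by
  have h1 := (rp_word hs hA l (rp_vN C s a) (isAdd_vN C a)).vN_eq
    ((isAdd_vN C a).comp (C.S.word_mem_W l)) r
  rw [← h1]
  simp only [vN, Int.cast_sum, Int.cast_mul, Int.cast_natCast, Finset.mul_sum]
  refine Finset.sum_congr rfl fun j _ => ?_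
  rw [(ZMod.natCast_eq_natCast_iff' _ _ _).2 (h j j.2)]
  push_cast
  ring

theorem word_val (l : List (Fin D.rank)) (r : Fin D.nroots) :
    (C.S.word l r : ℕ) = (l.map Fin.val).foldr D.reflectRoot r := by
  induction l with
  | nil => rfl
  | cons i l ih =>
    rw [SignedSys.word_cons, Perm.mul_apply, List.map_cons, List.foldr_cons, ← ih, ← C.refl_val]; rfl

end

theorem hA : H34.cartE8.length = chevE8.rank ∧ ∀ i < chevE8.rank,
    ∀ j < chevE8.rank, gt H34.cartE8 i j = chevE8.cartan i (chevE8.simple j) := by decide +kernel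

theorem t1 : ∀ i < 6, ∀ j < chevE8.rank,
    (((wl i).map Fin.val).foldl (svN 65 H34.cartE8) (rep i)).getD j 0 % 65 =
      2 * (rep i).getD j 0 % 65 := by decide +kernel

theorem t2 : ∀ i < 2, ∀ j < chevE8.rank,
    (((wl i).map Fin.val).foldl (svN 5 H34.cartE8) (g5 i)).getD j 0 % 5 =
      2 * (g5 i).getD j 0 % 5 := by decide +kernel

theorem t3 : ∀ i < 6, 2 ≤ i →
    ((wl i).map Fin.val).foldr chevE8.reflectRoot (al i) = be i ∧
      ((wl i).map Fin.val).foldr chevE8.reflectRoot (be i) = al i := by decide +kernel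

theorem datb : DatBStmt := fun i hi =>
  ⟨dbl (by decide) hA _ _ (t1 i hi), fun h => dbl (by decide) hA _ _ (t2 i h), fun h =>
    ⟨Fin.ext ((word_val _ _).trans (t3 i hi h).1), Fin.ext ((word_val _ _).trans (t3 i hi h).2)⟩⟩

end Cfsg.Agent.H80.E82Datb
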