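import Cfsg.Agent.H50.E83Defs

/-!
# The centraliser of the involution of type `D₈` acts on the orthogonal Lie algebra
-/

set_option autoImplicit false
set_option maxRecDepth 100000

namespace Cfsg.Agent.H80.E83Rep1a

open Equiv Cfsg.Lie H37 H40 H34 H29 Module Matrix Cfsg.Agent.H50.E83

section Gen

variable {n : ℕ} {F : Type*} [Field F]

/-- Equality test for lists of terms, modulo three. -/
def eqT3 (L R : List (Tm n)) : Bool :=
  ((L ++ R.map fun e => (e.1, e.2.1, e.2.2.1, -e.2.2.2)).foldr insT []).all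
    fun e => e.2.2.2 % 3 == 0

theorem eqT3_sound (h3 : (3 : F) = 0) {L R : List (Tm n)} (h : eqT3 L R = true) (t : F) :
    evT t L = evT t R := by
  have h1 : ∀ L : List (Tm n), evT t (L.foldr insT []) = evT t L := fun L => by
    induction L with
    | nil => rfl
    | cons e L ih => rw [List.foldr_cons, evT_insT, evT_cons, evT_cons, ih]
  have h2 : ∀ L : List (Tm n), (L.all fun e => e.2.2.2 % 3 == 0) = true → evT t L = 0 :=
      fun L hL => by
    induction L with
    | nil => rfl
    | cons e L ih =>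
      rw [List.all_cons, Bool.and_eq_true, beq_iff_eq] at hL
      obtain ⟨k, hk⟩ := Int.dvd_of_emod_eq_zero hL.1
      simp [hk, ih hL.2, h3]
  have h4 : evT t (R.map fun e => (e.1, e.2.1, e.2.2.1, -e.2.2.2)) = -evT t R := by
    clear h
    induction R with
    | nil => simp
    | cons e R ih => simp [ih, single_neg, add_comm]
  have := h2 _ h
  rwa [h1, evT_append, h4, add_neg_eq_zero] at this

/-- The terms of the image of `x_r(t) e_s`, from a table of chains. -/
def xeF (D : ChevalleyDatum) (H E : ℕ → List (Tm0 n)) (ch : List (ℕ × ℤ)) (r s : ℕ) :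
    List (Tm n) :=
  if s = D.neg r then upT 1 0 (E s) ++ ((List.range D.rank).flatMap fun i => upT (co D r i) 1 (H i)) ++
    upT (-1) 2 (E r)
  else upT 1 0 (E s) ++ chainT E 1 ch

/-- The kernel check for one root, modulo three. -/
def chkR3 (D : ChevalleyDatum) (H E : ℕ → List (Tm0 n)) (ch : ℕ → ℕ → List (ℕ × ℤ)) (r : ℕ) :
    Bool :=
  eqT3 (mulT (upT 1 1 (E r)) (upT 1 1 (E r))) [] &&
    ((List.range D.rank).all fun i => eqT3 (mulT (upT 1 1 (E r)) (upT 1 0 (H i)))
      (upT (-D.cartan i r) 1 (E r) ++ mulT (upT 1 0 (H i)) (upT 1 1 (E r)))) &&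
    (List.range D.nroots).all fun s => eqT3 (upT 1 0 (E s) ++ mulT (upT 1 1 (E r)) (upT 1 0 (E s)))
      (xeF D H E (ch r s) r s ++ mulT (xeF D H E (ch r s) r s) (upT 1 1 (E r)))

theorem xg_mem_rel3 (h3 : (3 : F) = 0) {D : ChevalleyDatum} (C : Cert D)
    {H E : ℕ → List (Tm0 n)} {ch : ℕ → ℕ → List (ℕ × ℤ)} {r : ℕ} (hr : r < D.nroots)
    (hc : ∀ s, ch r s = D.chainEntry r s) (h : chkR3 D H E ch r = true) (t : F) :
    ∃ A, (C.xg F r t, A) ∈ relG (rhoT D H E F) := by
  simp only [chkR3, List.all_eq_true, List.mem_range, Bool.and_eq_true] at h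
  have h0 := eqT3_sound h3 h.1.1 t
  simp only [evT_mulT, evT_upT, evT_nil, Int.cast_one, one_mul, pow_one] at h0
  refine ⟨⟨1 + t • evT0 F (E r), 1 - t • evT0 F (E r), by rw [mul_sub, mul_one, add_mul, h0]; simp,
    by rw [sub_mul, one_mul, mul_add, h0]; simp⟩, mem_relG (fun i hi => ?_) fun s hs => ?_⟩
  · have := eqT3_sound h3 (h.1.2 i hi) t
    simp only [evT_mulT, evT_upT, evT_append, Int.cast_one, one_mul, pow_one, pow_zero,
      one_smul] at this
    rw [Cert.coe_xg, C.V.coe_xG, x_hV hr t hi, map_sub, map_smul, rhoT_hV hi, rhoT_eV hr]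
    simp only [add_mul, mul_add, sub_mul, one_mul, mul_one, this]
    simp only [mul_smul, smul_mul_assoc (D.cartan i r : F), h0]
    simp [sub_eq_add_neg, add_assoc]
  · have := eqT3_sound h3 (h.2 s hs) t
    rw [hc, show xeF D H E (D.chainEntry r s) r s = xeT D H E r s from rfl] at this
    simp only [evT_mulT, evT_upT, evT_append, Int.cast_one, one_mul, pow_one, pow_zero,
      one_smul] at this
    rw [Cert.coe_xg, C.V.coe_xG, rhoT_x_eV C.V.basic hr hs, rhoT_eV hs]
    simp only [add_mul, mul_add, one_mul, mul_one, this]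

end Gen

/-- The table of chains. -/
noncomputable def ch8 (r s : ℕ) : List (ℕ × ℤ) := dec (validE8.code r (chevE8.rank + s))

/-- The check for the roots of `D₈`. -/
noncomputable def ck (r : ℕ) : Bool :=
  (chevE8.cartan 0 r + chevE8.cartan 1 r) % 2 == 1 || chkR3 chevE8 d8H d8E ch8 r

theorem ck0 : ((List.range' 0 30).all ck) = true := by decide +kernel
theorem ck1 : ((List.range' 30 30).all ck) = true := by decide +kernel
theorem ck2 : ((List.range' 60 30).all ck) = true := by decide +kernel
theorem ck3 : ((List.range' 90 30).all ck) = true := by decide +kernel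
theorem ck4 : ((List.range' 120 30).all ck) = true := by decide +kernel
theorem ck5 : ((List.range' 150 30).all ck) = true := by decide +kernel
theorem ck6 : ((List.range' 180 30).all ck) = true := by decide +kernel
theorem ck7 : ((List.range' 210 30).all ck) = true := by decide +kernel

theorem ck_all {r : ℕ} (hr : r < 240) : ck r = true := by
  have k : ∀ a, ((List.range' a 30).all ck) = true → a ≤ r → r < a + 30 → ck r = true :=
    fun a h h1 h2 => List.all_eq_true.1 h r (List.mem_range'_1.2 ⟨h1, h2⟩)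
  rcases lt_or_ge r 30 with h | h0
  · exact k _ ck0 (by omega) (by omega)
  rcases lt_or_ge r 60 with h | h1
  · exact k _ ck1 (by omega) (by omega)
  rcases lt_or_ge r 90 with h | h2
  · exact k _ ck2 (by omega) (by omega)
  rcases lt_or_ge r 120 with h | h3
  · exact k _ ck3 (by omega) (by omega)
  rcases lt_or_ge r 150 with h | h4
  · exact k _ ck4 (by omega) (by omega)
  rcases lt_or_ge r 180 with h | h5
  · exact k _ ck5 (by omega) (by omega)
  rcases lt_or_ge r 210 with h | h6
  · exact k _ ck6 (by omega) (by omega)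
  · exact k _ ck7 (by omega) (by omega)

theorem sgv3 (r : ℕ) : (tabOf chevE8).sgv 3 r = chevE8.cartan 0 r + chevE8.cartan 1 r := by
  rw [sgv_def]
  change ∑ i : Fin 8, (if Nat.testBit 3 i then chevE8.cartan i r else 0) = _
  rw [Fin.sum_univ_eight]
  simp [show Nat.testBit 3 0 = true from rfl, show Nat.testBit 3 1 = true from rfl,
    show Nat.testBit 3 2 = false from rfl, show Nat.testBit 3 3 = false from rfl,
    show Nat.testBit 3 4 = false from rfl, show Nat.testBit 3 5 = false from rfl,
    show Nat.testBit 3 6 = false from rfl, show Nat.testBit 3 7 = false from rfl]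

theorem eq_tm {z : GK} (h : Lab C8 (-1) z f1) : z = tm C8 K 3 := by
  obtain ⟨-, c, rfl, h2⟩ := h
  refine Cert.tg_eq_iff.2 fun j => ?_
  have := h2 (C8.R.simple j)
  rw [C8.simple_val, f1, vN_simple] at this
  rw [this, torChar_tm, sgv3]
  refine neg_one_zpow_congr ?_
  clear this
  revert j
  decide +kernel

theorem three : (3 : K) = 0 := by
  exact_mod_cast CharP.cast_eq_zero K 3

theorem rep1a : Rep1aStmt := by
  intro z hz g hg
  have h2 : (2 : K) ≠ 0 := fun e => one_ne_zero (α := K) (by linear_combination three - e)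
  have h1 := (SubCert.isCent (C := C8) h2 subE8m3 rigE8m3).mem_sup (g := g)
    (Subgroup.mem_centralizer_singleton_iff.2 (eq_tm hz ▸ hg.symm.eq))
  have h3 : (C8.split K).H ⊔ (C8.split K).U {r | (subE8m3.data C8).Ψ r} ≤
      (relG ρ8).map (MonoidHom.fst _ _) := by
    refine sup_le (fun k hk => ?_) (Split.U_le fun r hr x hx => ?_)
    · obtain ⟨c, rfl⟩ := Cert.mem_H_iff.1 hk
      obtain ⟨A, hA⟩ := tg_mem_rel (C := C8) (H := d8H) (E := d8E)
        (fun a i => (d8W a i - d8W 0 i) / 2) (by decide +kernel) (by decide +kernel) c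
      exact ⟨_, hA, rfl⟩
    · obtain ⟨t, rfl⟩ := Cert.mem_X.1 hx
      have h4 : (tabOf chevE8).sgv 3 r % 2 = 0 := hr
      have h5 := ck_all (r := r) r.2
      rw [ck, ← sgv3, h4] at h5
      obtain ⟨A, hA⟩ := xg_mem_rel3 three C8 r.2 (validE8.link.entry r.2) h5 t
      exact ⟨_, hA, rfl⟩
  obtain ⟨⟨_, A⟩, hA, rfl⟩ := h3 h1
  exact ⟨A, hA⟩

end Cfsg.Agent.H80.E83Rep1a
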