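import Cfsg.Agent.H73.GagDefs
import Cfsg.Agent.H28.Transport

/-!
# Transitive linear groups with a normal subgroup `SL₂(s)` in cross characteristic
-/

set_option autoImplicit false

namespace Cfsg.Agent.H80.GagCross

open Subgroup Cfsg Cfsg.Agent.H73.Gag Cfsg.Agent.H82
open scoped MatrixGroups

universe u

theorem two_pow_mul {m p : ℕ} (hm : m ≠ 0) (h : ∀ r : ℕ, r.Prime → r ∣ m → r = 2 ∨ r = p) :
    ∃ i j, m = 2 ^ i * p ^ j := by
  obtain ⟨i, t, ht, rfl⟩ := Nat.exists_eq_pow_mul_and_not_dvd hm 2 (by norm_num)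
  have t0 : t ≠ 0 := by rintro rfl; simp at hm
  refine ⟨i, t.primeFactorsList.length, ?_⟩
  rw [← Nat.eq_prime_pow_of_unique_prime_dvd t0 fun {r} hr hd =>
    (h r hr (hd.mul_left _)).resolve_left fun e => ht (e ▸ hd)]

theorem orderOf_uu {F : Type} [Field F] [Fintype F] {s a : ℕ} [Fact s.Prime]
    (hF : Fintype.card F = s ^ a) : orderOf (uu (1 : F)) = s :=
  orderOf_eq_prime (uu_pow_char hF 1) fun e => one_ne_zero (uu_eq_one_iff.1 e)

theorem hh_pow {F : Type} [Field F] {l : F} (hl : l ≠ 0) (k : ℕ) :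
    hh l hl ^ k = hh (l ^ k) (pow_ne_zero k hl) := by
  induction k with
  | zero => simp only [pow_zero]; exact hh_one.symm
  | succ k ih => rw [pow_succ, ih, hh_mul_hh]; simp only [pow_succ]

theorem orderOf_hh {F : Type} [Field F] (l : Fˣ) : orderOf (hh (l : F) l.ne_zero) = orderOf l := by
  rw [orderOf_eq_orderOf_iff]
  intro k
  rw [hh_pow]
  constructor
  · intro e
    have := congrArg (fun g : SL(2, F) => g 0 0) e
    exact Units.ext (by simpa [hh_00] using this)
  · intro e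
    have e2 : (l : F) ^ k = 1 := by simpa using congrArg Units.val e
    simp only [e2]
    exact hh_one

theorem cross (out : OutStmt.{u}) (arith : ArithStmt) : CrossStmt.{u} := by
  intro p n H V _ _ _ h hp hd L hL d f hn F _ _ hodd h3 hpF ⟨e⟩
  classical
  have := h.finite
  have k0 := h.k0
  have pp := h.srm.pp
  let ψ : SL(2, F) →* H := L.subtype.comp e.symm.toMonoidHom
  have ψi : Function.Injective ψ := L.subtype_injective.comp e.symm.injective
  have ψm : ∀ g, ψ g ∈ L := fun g => (e.symm g).2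
  have ψs : ∀ x ∈ L, ∃ g, ψ g = x := fun x hx => ⟨e ⟨x, hx⟩, by simp [ψ]⟩
  obtain ⟨s, _, a, hs, ha⟩ := FiniteField.card' F
  haveI := Fact.mk hs
  have sp : s ≠ p := fun e => hpF (ha ▸ e ▸ dvd_pow_self s a.ne_zero)
  have s2 : s ≠ 2 := by
    rintro rfl
    rw [ha] at hodd
    exact (Nat.not_even_iff_odd.2 hodd) ((Nat.even_pow' a.ne_zero).2 even_two)
  have cF : Fintype.card F = s := by
    have c1 : IsCyclic ((UU F).map ψ) := k0.cyc s hs sp s2 _ ((isPGroup_UU ha).map ψ)
    have c2 : Nat.card ((UU F).map ψ) = Fintype.card F := by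
      rw [card_map_of_injective ψi, card_UU, Nat.card_eq_fintype_card]
    have c3 : Monoid.exponent ((UU F).map ψ) ∣ s := by
      rw [Monoid.exponent_dvd_iff_forall_pow_eq_one]
      rintro ⟨_, _, ⟨t, rfl⟩, rfl⟩
      exact Subtype.ext (by
        change ψ (uu t) ^ s = 1
        rw [← map_pow, uu_pow_char ha, map_one])
    rw [IsCyclic.exponent_eq_card, c2] at c3
    exact ((Nat.dvd_prime hs).1 c3).resolve_left (by omega)
  have cF1 : Fintype.card F = s ^ 1 := by rw [cF, pow_one]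
  have s5 : 5 ≤ s := by
    rw [cF] at h3 hodd
    obtain ⟨k, hk⟩ := hodd
    omega
  let ι : ZMod s ≃+* F := ZMod.ringEquivOfPrime F hs cF
  have nat : ∀ t : F, ∃ k : ℕ, (k : F) = t := fun t =>
    ⟨(ι.symm t).val, by rw [← map_natCast ι, ZMod.natCast_zmod_val, ι.apply_symm_apply]⟩
  have oc : orderOf (ψ (uu 1)) = s := by rw [orderOf_injective ψ ψi, orderOf_uu ha]
  have hUU : (UU F).map ψ = zpowers (ψ (uu 1)) := by
    rw [← MonoidHom.map_zpowers]
    congr 1
    refine le_antisymm ?_ (zpowers_le.2 (uu_mem 1))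
    rintro _ ⟨t, rfl⟩
    obtain ⟨k, rfl⟩ := nat t
    exact ⟨(k : ℕ), by simp [uu_pow]⟩
  obtain ⟨i, j, hij⟩ : ∃ i j, s - 1 = 2 ^ i * p ^ j := by
    refine two_pow_mul (by omega) fun r hr hrd => ?_
    by_contra hne
    push Not at hne
    haveI := Fact.mk hr
    obtain ⟨l, hl⟩ := exists_prime_orderOf_dvd_card' (G := Fˣ) r (by
      rwa [Nat.card_units, Nat.card_eq_fintype_card, cF])
    have ox : orderOf (ψ (hh (l : F) l.ne_zero)) = r := by
      rw [orderOf_injective ψ ψi, orderOf_hh, hl]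
    have c := k0.com (ψ (uu 1)) (ψ (hh (l : F) l.ne_zero)) (ox ▸ hr)
      (by rw [ox]; exact fun x => hne.2 ((Nat.prime_dvd_prime_iff_eq pp hr).1 x).symm)
      (by rw [oc]; exact fun x => sp ((Nat.prime_dvd_prime_iff_eq pp hs).1 x).symm)
      (by
        rw [← hUU]
        exact le_normalizer_map ψ (mem_map_of_mem ψ (BB_le_normalizer (by rfl))))
    have c2 : hh (l : F) l.ne_zero * uu 1 * (hh (l : F) l.ne_zero)⁻¹ = uu 1 := by
      apply ψi
      rw [map_mul, map_mul, map_inv, c.eq, mul_inv_cancel_right]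
    rw [hh_uu, mul_one] at c2
    have c3 : l ^ 2 = 1 := Units.ext (by simpa using uu_injective c2)
    have c4 := orderOf_dvd_of_pow_eq_one c3
    rw [hl] at c4
    exact hne.1 ((Nat.prime_dvd_prime_iff_eq hr Nat.prime_two).1 c4)
  have two : (2 : F) ≠ 0 := by
    intro e2
    have := (CharP.cast_eq_zero_iff F s 2).1 (by exact_mod_cast e2)
    exact s2 ((Nat.prime_dvd_prime_iff_eq hs Nat.prime_two).1 this)
  have n1 : (-1 : SL(2, F)) ≠ 1 := fun e2 => two (by
    have := congrArg (fun g : SL(2, F) => g 0 0) e2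
    simp only [ent] at this
    linear_combination -this)
  have oz : orderOf (ψ (-1)) = 2 := by
    rw [orderOf_injective ψ ψi]
    exact orderOf_eq_prime (by simp) n1
  have inv : ∀ x : H, x ^ 2 = 1 → x ∈ zpowers (ψ (-1)) := fun x hx => by
    by_cases x1 : x = 1
    · rw [x1]; exact one_mem _
    · rw [h.inv_unique hp (orderOf_eq_prime hx x1) oz]; exact mem_zpowers _
  set C := centralizer (L : Set H) with hC
  have hCL : C ⊓ L = zpowers (ψ (-1)) := by
    refine le_antisymm ?_ (zpowers_le.2 ⟨fun x hx => ?_, ψm _⟩)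
    · rintro x ⟨x1, x2⟩
      obtain ⟨g, rfl⟩ := ψs x x2
      have : g ∈ center SL(2, F) := mem_center_iff.2 fun k => ψi (by
        rw [map_mul, map_mul]; exact x1 _ (ψm k))
      rcases mem_center_SL2_iff.1 this with rfl | rfl
      · rw [map_one]; exact one_mem _
      · exact mem_zpowers _
    · obtain ⟨g, rfl⟩ := ψs x hx
      rw [← map_mul, ← map_mul, mul_neg, neg_mul, mul_one, one_mul]
  have cCL : Nat.card ↥(C ⊓ L) = 2 := by rw [hCL, Nat.card_zpowers, oz]
  obtain ⟨c, hc⟩ : 2 ∣ Nat.card C := cCL ▸ card_dvd_of_le inf_le_left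
  have co : Odd c := by
    rw [← Nat.not_even_iff_odd]
    rintro ⟨c', rfl⟩
    haveI := hn.cyc
    obtain ⟨g, hg⟩ := IsCyclic.exists_ofOrder_eq_natCard (α := C)
    have c0 : c' ≠ 0 := by
      rintro rfl
      exact (Nat.card_pos (α := C)).ne' hc
    have o4 : orderOf (g ^ c') = 4 := by
      rw [orderOf_pow' _ c0, hg, hc, show 2 * (c' + c') = 4 * c' by ring, Nat.gcd_mul_left_left,
        Nat.mul_div_cancel _ (Nat.pos_of_ne_zero c0)]
    set z := g ^ c'
    have o4' : orderOf (z : H) = 4 := by rw [orderOf_coe, o4]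
    have z2 : (z : H) ^ 2 = ψ (-1) := by
      refine h.inv_unique hp ?_ oz
      rw [orderOf_pow' _ two_ne_zero, o4']; rfl
    have cm : Commute (ψ (mm 1 one_ne_zero)) (z : H) := z.2 _ (ψm _)
    have z3 : (ψ (mm 1 one_ne_zero) * z) ^ 2 = 1 := by
      rw [cm.mul_pow, z2, ← map_pow, pow_two, mm_mul_mm, ← map_mul]
      simp
    have z4 : (z : H) ∈ L := by
      have := (hCL.ge (inv _ z3)).2
      exact (L.mul_mem_cancel_left (ψm _)).1 this
    have z5 := orderOf_dvd_natCard (⟨z, z.2, z4⟩ : ↥(C ⊓ L))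
    rw [cCL, ← orderOf_coe] at z5
    change orderOf (z : H) ∣ 2 at z5
    rw [o4'] at z5
    omega
  have cL : Nat.card L = s * (s ^ 2 - 1) := by
    rw [Nat.card_congr e.toEquiv, ← (UU F).card_mul_index, index_UU cF1, card_UU,
      Nat.card_eq_fintype_card, cF, pow_one]
  have cS : Nat.card ↥(L ⊔ C) = c * (s * (s ^ 2 - 1)) := by
    have := H3.card_sup_mul_card_inf C L
    rw [cCL, hc, cL, sup_comm] at this
    linarith
  obtain ⟨φ, -, hφ⟩ := out H L hL F s 1 hs cF1 (by omega) ⟨e⟩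
  have kt : φ.ker = ⊤ := eq_top_iff.2 fun x _ => Subsingleton.elim _ _
  rw [kt, relIndex_top_right] at hφ
  have he := (Nat.dvd_prime Nat.prime_two).1 (hφ.trans (Nat.gcd_dvd_left _ _))
  obtain ⟨k, hk⟩ := h.card_eq
  have n0 : n ≠ 0 := by
    rw [hn.n_eq]
    exact mul_ne_zero (by have := hn.two_le; omega) (by have := hn.one_le; omega)
  have k1 : 1 ≤ k := by
    rcases k with _ | k
    · rw [hk, pow_zero, mul_one] at hd
      have := (Nat.dvd_sub_iff_right (Nat.one_le_pow _ _ pp.pos) (dvd_pow_self p n0)).1 hd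
      exact absurd (Nat.dvd_one.1 this) pp.one_lt.ne'
    · omega
  have dim := hn.dim s (ψ (uu 1)) hs sp (ψm _) oc fun m hm => by
    have m0 : (m : F) ≠ 0 := fun e2 => hm ((CharP.cast_eq_zero_iff F s m).1 e2)
    refine ⟨ψ (hh m m0), ψm _, ?_⟩
    rw [← map_inv, ← map_mul, ← map_mul, ← map_pow, hh_uu, uu_pow]
    simp
  obtain ⟨p3, c1, hse⟩ := arith p s d f c (L ⊔ C).index i j k pp hs hp sp.symm s5 hn.one_le dim hij co
    (hc ▸ hn.dvd) he k1 (by
      rw [← hn.n_eq, ← hk, ← (L ⊔ C).card_mul_index, cS]; ring)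
  have CL : C ≤ L := by
    have : C ⊓ L = C := eq_of_le_of_card_ge inf_le_left (by rw [hc, c1, cCL])
    exact this.ge.trans inf_le_right
  rw [sup_eq_left.2 CL] at hse
  rcases hse with ⟨rfl, e2⟩ | ⟨rfl, e2⟩
  · refine Or.inr (Or.inl ⟨p3, L, hL, e2, ⟨e.trans (H28.slEquiv ι.symm (Fin 2))⟩, ?_, fun K hK => ?_⟩)
    · ext x
      constructor
      · intro hx
        exact ⟨⟨x, CL hx⟩, mem_center_iff.2 fun y => Subtype.ext (hx y y.2), rfl⟩
      · rintro ⟨y, hy, rfl⟩ w hw
        exact congrArg Subtype.val (mem_center_iff.1 hy ⟨w, hw⟩)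
    · have cK : Nat.card K = 2 := by rw [← hK.symm.index_eq_card, e2]
      obtain ⟨x, hx⟩ := exists_prime_orderOf_dvd_card' (G := K) 2 cK.symm.dvd
      have x2 : (x : H) = ψ (-1) := h.inv_unique hp (by rw [orderOf_coe, hx]) oz
      have x3 : (x : H) = 1 := disjoint_def.1 hK.disjoint (x2 ▸ ψm _) x.2
      rw [← x2, x3, orderOf_one] at oz
      omega
  · refine Or.inr (Or.inr (Or.inl ⟨p3, ⟨?_⟩⟩))
    exact (topEquiv.symm.trans (MulEquiv.subgroupCongr (index_eq_one.1 e2).symm)).trans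
      (e.trans (H28.slEquiv ι.symm (Fin 2)))

end Cfsg.Agent.H80.GagCross
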