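import Cfsg.Agent.H98.GbH

/-! The twisted Hall algebra as a commutative algebra. -/

set_option autoImplicit false

namespace Cfsg.Agent.H80.GbAlg

open Cfsg Finset Cfsg.Agent.H98.GB
open scoped MatrixGroups

universe u

variable {F : Type u} [Field F] [Fintype F] [DecidableEq F] (η : Fˣ →* ℂˣ)

/-- twisted parabolic induction as a bilinear map -/
noncomputable def cmL {a b n : ℕ} (S : GL (Fin n) F → Prop) (h : a + b = n) :
    (GL (Fin a) F → ℂ) →ₗ[ℂ] (GL (Fin b) F → ℂ) →ₗ[ℂ] (GL (Fin n) F → ℂ) :=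
  LinearMap.mk₂ ℂ (cmpS S η h)
    (fun f f₁ f' => funext fun g => by
      simp only [cmpS, Pi.add_apply, mul_add, add_mul, ite_add_zero, sum_add_distrib])
    (fun c f f' => funext fun g => by
      simp only [cmpS, Pi.smul_apply, smul_eq_mul, mul_sum, mul_ite, mul_zero]
      refine sum_congr rfl fun _ _ => sum_congr rfl fun _ _ => sum_congr rfl fun _ _ =>
        sum_congr rfl fun _ _ => ?_
      split_ifs
      · ring
      · rfl)
    (fun f f' f₁ => funext fun g => by
      simp only [cmpS, Pi.add_apply, mul_add, ite_add_zero, sum_add_distrib])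
    (fun c f f' => funext fun g => by
      simp only [cmpS, Pi.smul_apply, smul_eq_mul, mul_sum, mul_ite, mul_zero]
      refine sum_congr rfl fun _ _ => sum_congr rfl fun _ _ => sum_congr rfl fun _ _ =>
        sum_congr rfl fun _ _ => ?_
      split_ifs
      · ring
      · rfl)

/-- the same without the proof argument -/
noncomputable def cm (a b n : ℕ) :
    (GL (Fin a) F → ℂ) →ₗ[ℂ] (GL (Fin b) F → ℂ) →ₗ[ℂ] (GL (Fin n) F → ℂ) :=
  if h : a + b = n then cmL η (fun _ => True) h else 0

theorem cm_eq {a b n : ℕ} (h : a + b = n) (f : GL (Fin a) F → ℂ) (f' : GL (Fin b) F → ℂ) :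
    cm η a b n f f' = cmp η h f f' := by rw [cm, dif_pos h]; rfl

theorem mul_eq (x y : Fn F) (n : ℕ) :
    mul η x y n = ∑ ab ∈ antidiagonal n, cm η ab.1 ab.2 n (x ab.1) (y ab.2) := by
  rw [mul, ← sum_coe_sort (antidiagonal n)]
  exact sum_congr rfl fun ab _ => (cm_eq η _ _ _).symm

theorem mul_add' (x y z : Fn F) : mul η x (y + z) = mul η x y + mul η x z := funext fun n => by
  simp only [Pi.add_apply, mul_eq, map_add, sum_add_distrib]

theorem add_mul' (x y z : Fn F) : mul η (x + y) z = mul η x z + mul η y z := funext fun n => by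
  simp only [Pi.add_apply, mul_eq, map_add, LinearMap.add_apply, sum_add_distrib]

theorem mul_smul' (c : ℂ) (x y : Fn F) : mul η x (c • y) = c • mul η x y := funext fun n => by
  simp only [Pi.smul_apply, mul_eq, map_smul, smul_sum]

theorem smul_mul' (c : ℂ) (x y : Fn F) : mul η (c • x) y = c • mul η x y := funext fun n => by
  simp only [Pi.smul_apply, mul_eq, map_smul, LinearMap.smul_apply, smul_sum]

theorem mul_assoc' (hA : ASSOCStmt.{u}) (x y z : Fn F) :
    mul η (mul η x y) z = mul η x (mul η y z) := funext fun n => by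
  simp only [mul_eq, map_sum, LinearMap.sum_apply, sum_sigma']
  refine sum_nbij' (fun p => ⟨(p.2.1, p.2.2 + p.1.2), (p.2.2, p.1.2)⟩)
    (fun p => ⟨(p.1.1 + p.2.1, p.2.2), (p.1.1, p.2.1)⟩) ?_ ?_ ?_ ?_ ?_
  · rintro ⟨⟨i, j⟩, ⟨k, l⟩⟩ h
    simp only [mem_sigma, HasAntidiagonal.mem_antidiagonal] at h ⊢
    exact ⟨by omega, trivial⟩
  · rintro ⟨⟨i, j⟩, ⟨k, l⟩⟩ h
    simp only [mem_sigma, HasAntidiagonal.mem_antidiagonal] at h ⊢
    exact ⟨by omega, trivial⟩
  · rintro ⟨⟨i, j⟩, ⟨k, l⟩⟩ h
    simp only [mem_sigma, HasAntidiagonal.mem_antidiagonal] at h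
    obtain ⟨-, rfl⟩ := h
    rfl
  · rintro ⟨⟨i, j⟩, ⟨k, l⟩⟩ h
    simp only [mem_sigma, HasAntidiagonal.mem_antidiagonal] at h
    obtain ⟨-, rfl⟩ := h
    rfl
  · rintro ⟨⟨i, j⟩, ⟨k, l⟩⟩ h
    simp only [mem_sigma, HasAntidiagonal.mem_antidiagonal] at h
    obtain ⟨h1, h2⟩ := h
    have h3 : k + (l + j) = n := by omega
    rw [cm_eq η h1, cm_eq η h2, cm_eq η h3, cm_eq η rfl]
    exact hA F η _ _ _ _ _ _ h1 h2 h3 rfl _ _ _

/-- the twisted families -/
def TS : Submodule ℂ (Fn F) where
  carrier := {x | TwF η x}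
  add_mem' hx hy n a g := by simp only [Pi.add_apply, hx n a g, hy n a g, mul_add]
  zero_mem' n a g := by simp
  smul_mem' c x hx n a g := by simp only [Pi.smul_apply, hx n a g, smul_eq_mul, mul_left_comm]

theorem tw_mul (hT : TWCStmt.{u}) (x y : Fn F) : TwF η (mul η x y) := fun n a g => by
  simp only [mul, Finset.sum_apply, mul_sum]
  exact sum_congr rfl fun ab _ => (hT F η).1 _ _ _ _ _ _ a g

omit [Fintype F] [DecidableEq F] in
theorem tw_one : TwF η (one F) := fun n a g => by
  rcases n with _ | n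
  · rw [Subsingleton.elim a 1, map_one, Units.val_one, one_mul, one_mul, inv_one, mul_one]
  · simp [one]

theorem alg (hT : TWCStmt.{u}) (hA : ASSOCStmt.{u}) (hC : COMMStmt.{u}) : ALGStmt.{u} := by
  intro F _ _ _ η
  letI R : CommRing (TS η) :=
    { (inferInstance : AddCommGroup (TS η)) with
      mul := fun x y => ⟨mul η x y, tw_mul η hT x y⟩
      one := ⟨one F, tw_one η⟩
      left_distrib := fun x y z => Subtype.ext (mul_add' η x y z)
      right_distrib := fun x y z => Subtype.ext (add_mul' η x y z)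
      zero_mul := fun x => Subtype.ext (by
        have := smul_mul' η 0 x x
        rwa [zero_smul, zero_smul] at this)
      mul_zero := fun x => Subtype.ext (by
        have := mul_smul' η 0 x x
        rwa [zero_smul, zero_smul] at this)
      mul_assoc := fun x y z => Subtype.ext (mul_assoc' η hA x y z)
      one_mul := fun x => Subtype.ext ((hT F η).2.2.2.1 x x.2).1
      mul_one := fun x => Subtype.ext ((hT F η).2.2.2.1 x x.2).2
      mul_comm := fun x y => Subtype.ext (hC F η x y x.2 y.2) }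
  letI A : Algebra ℂ (TS η) := Algebra.ofModule
    (fun c x y => Subtype.ext (smul_mul' η c x y)) fun c x y => Subtype.ext (mul_smul' η c x y)
  exact ⟨{ A := TS η
           ev := (TS η).subtype
           inj := Subtype.val_injective
           tw := fun x => x.2
           surj := fun f hf => ⟨⟨f, hf⟩, rfl⟩
           ev_mul := fun _ _ => rfl
           ev_one := rfl }⟩

end Cfsg.Agent.H80.GbAlg
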