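import Cfsg.Agent.H98.GbG
import Cfsg.Agent.H44.GbConc
import Cfsg.Agent.H5.GbSpla

/-! Twisted induction from the kernel of a linear character embeds the twisted class functions of
a union of blocks that meets none of its conjugates. -/

set_option autoImplicit false

namespace Cfsg.Agent.H80.GbSplb

open Cfsg Cfsg.Agent.H98.GB Cfsg.Agent.H14
open scoped ComplexConjugate

universe u

theorem ext_lin {G : Type u} [Group G] [Finite G] (K : Subgroup G) (μ : K →* ℂˣ)
    (h : ∀ k : K, (k : G) ∈ commutator G → μ k = 1) : ∃ a : G →* ℂˣ, ∀ k : K, a k = μ k := by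
  let F : K →* Abelianization G := Abelianization.of.comp K.subtype
  have hker : F.rangeRestrict.ker ≤ μ.ker := by
    intro d hd
    rw [MonoidHom.ker_rangeRestrict, MonoidHom.mem_ker] at hd
    exact h d ((QuotientGroup.eq_one_iff _).1 hd)
  let l : F.range →* ℂˣ :=
    F.rangeRestrict.liftOfSurjective F.rangeRestrict_surjective ⟨μ, hker⟩
  have : Finite (Abelianization G) := Finite.of_surjective _ (QuotientGroup.mk_surjective)
  have : NeZero (Monoid.exponent (Abelianization G) : ℂ) :=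
    ⟨Nat.cast_ne_zero.2 Monoid.exponent_ne_zero_of_finite⟩
  obtain ⟨ν, hν⟩ := MonoidHom.domRestrict_surjective (M := ℂ) F.range l
  refine ⟨ν.comp Abelianization.of, fun d => ?_⟩
  have h1 : l (F.rangeRestrict d) = μ d :=
    MonoidHom.liftOfRightInverse_comp_apply _ _ _ _ _
  rw [← h1, ← hν]
  rfl

section
variable {G : Type u} [Group G] [Fintype G]

/-- `VS` as a subspace -/
def VSm (l : G →* ℂˣ) (S : Set (IrrCharacter G)) : Submodule ℂ (G → ℂ) where
  carrier := VS l S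
  add_mem' := by
    rintro f f' ⟨h1, h2⟩ ⟨h3, h4⟩
    refine ⟨fun x g => ?_, fun χ hχ g => ?_⟩
    · simp only [Pi.add_apply, h1 x g, h3 x g, mul_add]
    · simp only [Pi.add_apply, mul_add, Finset.sum_add_distrib, h2 χ hχ g, h4 χ hχ g, add_zero]
  zero_mem' := ⟨fun x g => by simp, fun χ _ g => by simp⟩
  smul_mem' := by
    rintro c f ⟨h1, h2⟩
    refine ⟨fun x g => ?_, fun χ hχ g => ?_⟩
    · simp only [Pi.smul_apply, h1 x g, smul_eq_mul]; ring
    · simp only [Pi.smul_apply, smul_eq_mul, mul_left_comm _ c, ← Finset.mul_sum, h2 χ hχ g,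
        mul_zero]

/-- twisted induction as a linear map -/
noncomputable def avL (K : Subgroup G) (a : G →* ℂˣ) : (K → ℂ) →ₗ[ℂ] (G → ℂ) where
  toFun := av K a
  map_add' f f' := funext fun g => by
    simp only [av, extendByZero_add, Pi.add_apply, mul_add, Finset.sum_add_distrib]
  map_smul' c f := funext fun g => by
    simp only [av, extendByZero_smul, Pi.smul_apply, smul_eq_mul, RingHom.id_apply,
      mul_left_comm _ c, ← Finset.mul_sum]

theorem av_tw (K : Subgroup G) (a : G →* ℂˣ) (f : K → ℂ) : Tw a (av K a f) := fun y g => by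
  rw [av, av, mul_left_comm, Finset.mul_sum _ _ (a y : ℂ), ← Equiv.sum_comp (Equiv.mulLeft y)]
  congr 1
  refine Finset.sum_congr rfl fun x _ => ?_
  change (a (y * x) : ℂ) * extendByZero K f ((y * x)⁻¹ * (y * g * y⁻¹) * (y * x)) = _
  rw [show (y * x)⁻¹ * (y * g * y⁻¹) * (y * x) = x⁻¹ * g * x by group, map_mul, Units.val_mul,
    mul_assoc]

theorem av_reg (p : ℕ) (K : Subgroup G) (a : G →* ℂˣ) (f : K → ℂ) :
    pRegularPart p (av K a f) = av K a (pRegularPart p f) := by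
  funext g
  have o : ∀ x : G, ∀ h : x⁻¹ * g * x ∈ K,
      IsPRegular p (⟨_, h⟩ : K) ↔ IsPRegular p g := fun x h => by
    have := (MulAut.conj x⁻¹).orderOf_eq g
    rw [IsPRegular, IsPRegular, ← Subgroup.orderOf_coe, ← this]
    simp
  by_cases hg : IsPRegular p g
  · rw [pRegularPart, if_pos hg, av, av]
    congr 1
    refine Finset.sum_congr rfl fun x _ => ?_
    by_cases h : x⁻¹ * g * x ∈ K
    · rw [extendByZero_of_mem _ _ h, extendByZero_of_mem _ _ h, pRegularPart, if_pos ((o x h).2 hg)]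
    · rw [extendByZero_of_not_mem _ _ h, extendByZero_of_not_mem _ _ h]
  · rw [pRegularPart, if_neg hg, av, Finset.sum_eq_zero, mul_zero]
    intro x _
    by_cases h : x⁻¹ * g * x ∈ K
    · rw [extendByZero_of_mem _ _ h, pRegularPart, if_neg fun e => hg ((o x h).1 e), mul_zero]
    · rw [extendByZero_of_not_mem _ _ h, mul_zero]

/-- a character over no member of `Y` kills the extension by zero -/
theorem conv_zero (K : Subgroup G) [hK : K.Normal] [Fintype K] {Y : Set (IrrCharacter K)}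
    {f : K → ℂ} (hf : InE Y f) (χ : IrrCharacter G) (hχ : ∀ θ ∈ Y, ¬ H22.Over K χ.1 θ.1) (g : G) :
    ∑ h, χ.1 h * extendByZero K f (h⁻¹ * g) = 0 := by
  classical
  have := Fintype.ofFinite (IrrCharacter K)
  have hc := H11.isClassFunction_of_irr χ.2
  -- the restriction kills `f`
  have h1 : ∀ u : G, ∑ k : K, χ.1 (k : G)⁻¹ * extendByZero K f (k * u) = 0 := fun u => by
    by_cases hu : u ∈ K
    · rw [← Equiv.sum_comp (Equiv.inv K)]
      have e : ∀ k : K, χ.1 ((Equiv.inv K k : K) : G)⁻¹ * extendByZero K f ((Equiv.inv K k : K) * u) =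
          ∑ θ : IrrCharacter K, classInner (fun n : K => χ.1 n) θ.1 * (θ.1 k * f (k⁻¹ * ⟨u, hu⟩)) :=
        fun k => by
          have e1 := H11.classFun_apply_eq_sum (H11.isClassFunction_restrict hc K) k
          simp only [← mul_assoc, ← Finset.sum_mul]
          rw [← e1, ← extendByZero_coe K f]
          simp
      simp only [e]
      rw [Finset.sum_comm]
      refine Finset.sum_eq_zero fun θ _ => ?_
      rw [← Finset.mul_sum]
      by_cases hθ : θ ∈ Y
      · have := hχ θ hθ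
        rw [H22.over_iff, not_not] at this
        rw [this, zero_mul]
      · rw [hf θ hθ, mul_zero]
    · refine Finset.sum_eq_zero fun k _ => ?_
      rw [extendByZero_of_not_mem _ _ fun h => hu ((K.mul_mem_cancel_left k.2).1 h), mul_zero]
  have hE : IsClassFunction G (extendByZero K fun k : K => χ.1 (k : G)⁻¹) := fun x y => by
    by_cases hx : x ∈ K
    · rw [extendByZero_of_mem _ _ hx, extendByZero_of_mem _ _ (hK.conj_mem x hx y)]
      change χ.1 (y * x * y⁻¹)⁻¹ = χ.1 x⁻¹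
      rw [← hc x⁻¹ y]; group
    · rw [extendByZero_of_not_mem _ _ hx, extendByZero_of_not_mem _ _ fun h => hx (by
        simpa [mul_assoc] using hK.conj_mem _ h y⁻¹)]
  have h2 := H11.sum_classFun_mul_irr_mul χ.2 hE
  simp only [sum_extendByZero_mul] at h2
  obtain ⟨n, hn, h1'⟩ := H11.exists_pos_degree χ.2
  have d0 : χ.1 1 ≠ 0 := by rw [h1']; exact Nat.cast_ne_zero.2 hn.ne'
  have c0 : (∑ k : K, χ.1 (k : G)⁻¹ * χ.1 k) / χ.1 1 ≠ 0 := by
    refine div_ne_zero (fun e => d0 ?_) d0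
    have e2 : classInner (fun n : K => χ.1 n) (fun n : K => χ.1 n) = 0 := by
      rw [classInner]
      simp only [H11.conj_apply (H11.isCharacter_of_irr χ.2), mul_comm (χ.1 _) (χ.1 _⁻¹), e,
        mul_zero]
    exact congrFun (H11.classInner_self_eq_zero.1 e2) 1
  refine (mul_eq_zero.1 ?_).resolve_left c0
  rw [Finset.mul_sum]
  simp only [← mul_assoc, ← h2, Finset.sum_mul]
  rw [Finset.sum_comm]
  have h3 : ∀ k : K, ∑ h, χ.1 (k : G)⁻¹ * χ.1 (k * h) * extendByZero K f (h⁻¹ * g) =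
      ∑ h, χ.1 h * (χ.1 (k : G)⁻¹ * extendByZero K f (k * (h⁻¹ * g))) := fun k => by
    rw [← Equiv.sum_comp (Equiv.mulRight (k : G)⁻¹)]
    refine Finset.sum_congr rfl fun h _ => ?_
    change χ.1 (k : G)⁻¹ * χ.1 (k * (h * (k : G)⁻¹)) * extendByZero K f ((h * (k : G)⁻¹)⁻¹ * g) = _
    rw [← mul_assoc (k : G), hc h k, show (h * (k : G)⁻¹)⁻¹ * g = k * (h⁻¹ * g) by group]
    ring
  simp only [h3]
  rw [Finset.sum_comm]
  simp only [← Finset.mul_sum, h1, mul_zero, Finset.sum_const_zero]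

theorem av_inE (K : Subgroup G) [hK : K.Normal] [Fintype K] (a : G →* ℂˣ)
    {X : Set (IrrCharacter G)} {Y : Set (IrrCharacter K)}
    (hXY : ∀ θ ∈ Y, ∀ χ : IrrCharacter G, H22.Over K χ.1 θ.1 → χ ∈ X)
    {f : K → ℂ} (hf : InE Y f) : InE X (av K a f) := fun χ hχ g => by
  have hc := H11.isClassFunction_of_irr χ.2
  have e : ∀ h, χ.1 h * av K a f (h⁻¹ * g) = (Nat.card K : ℂ)⁻¹ *
      ∑ x, χ.1 h * ((a x : ℂ) * extendByZero K f (x⁻¹ * (h⁻¹ * g) * x)) := fun h => by
    rw [av, mul_left_comm, Finset.mul_sum _ _ (χ.1 h)]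
  simp only [e]
  rw [← Finset.mul_sum, Finset.sum_comm, Finset.sum_eq_zero, mul_zero]
  intro x _
  have := conv_zero K hf χ (fun θ hθ h => hχ (hXY θ hθ χ h)) (x⁻¹ * g * x)
  simp only [mul_left_comm _ (a x : ℂ), ← Finset.mul_sum]
  rw [← Equiv.sum_comp (MulAut.conj x).toEquiv, ← mul_zero (a x : ℂ), ← this]
  congr 1
  refine Finset.sum_congr rfl fun h _ => ?_
  change χ.1 (x * h * x⁻¹) * extendByZero K f (x⁻¹ * ((x * h * x⁻¹)⁻¹ * g) * x) = _
  rw [hc h x, show x⁻¹ * ((x * h * x⁻¹)⁻¹ * g) * x = h⁻¹ * (x⁻¹ * g * x) by group]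

omit [Fintype G] in
theorem cj_inE (K : Subgroup G) [hK : K.Normal] [Fintype K] {Y : Set (IrrCharacter K)}
    {f : K → ℂ} (hf : InE Y f) (z : G) : InE {θ | H22.cjIrr K z⁻¹ θ ∈ Y} (cj K z f) :=
  fun θ hθ g => by
    rw [H5.GbSpla.cj_eq, ← hf _ hθ ((MulAut.conjNormal z : K ≃* K).symm g),
      ← Equiv.sum_comp (MulAut.conjNormal z : K ≃* K).toEquiv]
    refine Finset.sum_congr rfl fun h _ => ?_
    rw [H22.cjIrr_inv_apply]
    simp only [MulEquiv.toEquiv_eq_coe, MulEquiv.coe_toEquiv, map_mul, map_inv,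
      MulEquiv.symm_apply_apply]
    rfl

theorem av_inj (hD : DECStmt.{u}) (K : Subgroup G) [hK : K.Normal] [Fintype K] (a : G →* ℂˣ)
    (μ : K →* ℂˣ) (ha : ∀ k : K, a k = μ k) {Y : Set (IrrCharacter K)}
    (hY : ∀ x, x ∉ K → ∀ θ ∈ Y, ∀ θ' ∈ Y, cj K x θ.1 ≠ θ'.1)
    {f : K → ℂ} (hf : f ∈ VS μ Y) (h0 : av K a f = 0) : f = 0 := by
  have h1 := H44.GbConc.key K a f f
  rw [h0, H11.classInner_zero_left] at h1
  have h2 : ∀ z, (a z : ℂ) * classInner (cj K z f) f =
      extendByZero K (fun _ => 1) z * classInner f f := fun z => by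
    by_cases hz : z ∈ K
    · have e : cj K z f = ((μ ⟨z, hz⟩⁻¹ : ℂˣ) : ℂ) • f := funext fun k => by
        rw [Pi.smul_apply, smul_eq_mul, ← hf.1 ⟨z, hz⟩⁻¹ k, ← extendByZero_coe K f, cj]
        simp
      rw [e, H11.classInner_smul_left, extendByZero_of_mem _ _ hz, ← mul_assoc, map_inv,
        ← ha ⟨z, hz⟩, Units.mul_inv]
    · rw [extendByZero_of_not_mem _ _ hz, zero_mul,
        (hD K).2.1 _ _ _ _ (cj_inE K hf.2 z) hf.2 ?_, mul_zero]
      rw [Set.disjoint_left]
      intro θ h1 h2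
      exact hY z⁻¹ (by rwa [inv_mem_iff]) θ h2 _ h1 (H5.GbSpla.cj_irr _ _)
  simp only [h2] at h1
  rw [← Finset.sum_mul, sum_extendByZero, Finset.sum_const, Finset.card_univ,
    ← Nat.card_eq_fintype_card, nsmul_eq_mul, mul_one, ← mul_assoc,
    inv_mul_cancel₀ (card_subgroup_ne_zero K), one_mul] at h1
  exact H11.classInner_self_eq_zero.1 h1.symm

theorem rk_le (hD : DECStmt.{u}) (h3 : CL3Stmt.{u}) (p : ℕ) [Fact p.Prime] (M : Ideal AlgInt)
    (hM : IsPModular p M) (K : Subgroup G) [hK : K.Normal] [Fintype K] (a : G →* ℂˣ)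
    (μ : K →* ℂˣ) (ha : ∀ k : K, a k = μ k) {X : Set (IrrCharacter G)} {Y : Set (IrrCharacter K)}
    (hL : H17.LamClosed M Y) (hY : ∀ x, x ∉ K → ∀ θ ∈ Y, ∀ θ' ∈ Y, cj K x θ.1 ≠ θ'.1)
    (hXY : ∀ θ ∈ Y, ∀ χ : IrrCharacter G, H22.Over K χ.1 θ.1 → χ ∈ X) :
    rk p (VS μ Y) ≤ rk p (VS a X) := by
  have h1 : Submodule.span ℂ (pRegularPart p '' VS μ Y) ≤ VSm μ Y := by
    rw [Submodule.span_le]
    rintro _ ⟨f, hf, rfl⟩
    exact h3 K p M hM μ Y hL f hf
  have h2 : ∀ f ∈ Submodule.span ℂ (pRegularPart p '' VS μ Y),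
      avL K a f ∈ Submodule.span ℂ (pRegularPart p '' VS a X) := by
    intro f hf
    have : (Submodule.span ℂ (pRegularPart p '' VS μ Y)).map (avL K a) ≤
        Submodule.span ℂ (pRegularPart p '' VS a X) := by
      rw [Submodule.map_span, Submodule.span_le]
      rintro _ ⟨_, ⟨f, hf, rfl⟩, rfl⟩
      exact Submodule.subset_span ⟨av K a f, ⟨av_tw K a f, av_inE K a hXY hf.2⟩, av_reg p K a f⟩
    exact this (Submodule.mem_map_of_mem hf)
  refine LinearMap.finrank_le_finrank_of_injective (f := (avL K a).restrict h2) ?_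
  rw [injective_iff_map_eq_zero]
  intro f hf
  exact Subtype.ext (av_inj hD K a μ ha hY (h1 f.2) (congrArg Subtype.val hf))

end

theorem splb (hD : DECStmt.{u}) (h3 : CL3Stmt.{u}) : SPLbStmt.{u} := by
  intro G _ _ p _ M hM l _ N hN hNl X Y hL hY hXY A hA A' hA'
  classical
  have hc : commutator G ≤ N := by
    rw [commutator_def, Subgroup.commutator_le]
    intro x _ y _
    exact hN x y
  have he : ∀ μ ∈ A', ∃ a : G →* ℂˣ, ∀ k : l.ker, a k = μ k := fun μ hμ =>
    ext_lin l.ker μ fun k hk => (hA' μ).1 hμ (hc hk)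
  choose! e he using he
  have hr : ∀ (j : ℕ), ∀ μ ∈ A', ∀ k : l.ker, (l ^ j * e μ) k = μ k := fun j μ hμ k => by
    rw [MonoidHom.mul_apply, MonoidHom.pow_apply, MonoidHom.mem_ker.1 k.2, one_pow, one_mul,
      he μ hμ]
  let φ : ℕ × (l.ker →* ℂˣ) → (G →* ℂˣ) := fun x => l ^ x.1 * e x.2
  have hinj : Set.InjOn φ (Finset.range (orderOf l) ×ˢ A' : Finset _) := by
    rintro ⟨i, μ⟩ h1 ⟨j, ν⟩ h2 h
    simp only [Finset.coe_product, Set.mem_prod, Finset.mem_coe, Finset.mem_range] at h1 h2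
    have e1 : μ = ν := MonoidHom.ext fun k => by
      rw [← hr i μ h1.2, ← hr j ν h2.2]
      exact DFunLike.congr_fun h _
    subst e1
    rw [pow_injOn_Iio_orderOf h1.1 h2.1 (mul_right_cancel h)]
  calc orderOf l * ∑ a ∈ A', rk p (VS a Y)
      = ∑ x ∈ Finset.range (orderOf l) ×ˢ A', rk p (VS x.2 Y) := by
        rw [Finset.sum_product]; simp
    _ ≤ ∑ x ∈ Finset.range (orderOf l) ×ˢ A', rk p (VS (φ x) X) :=
        Finset.sum_le_sum fun x hx =>
          rk_le hD h3 p M hM l.ker (φ x) x.2 (hr x.1 x.2 (Finset.mem_product.1 hx).2) hL hY hXY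
    _ = ∑ a ∈ (Finset.range (orderOf l) ×ˢ A').image φ, rk p (VS a X) :=
        (Finset.sum_image (f := fun a => rk p (VS a X)) hinj).symm
    _ ≤ ∑ a ∈ A, rk p (VS a X) := by
        refine Finset.sum_le_sum_of_subset fun a ha => ?_
        obtain ⟨x, hx, rfl⟩ := Finset.mem_image.1 ha
        have hx2 := (Finset.mem_product.1 hx).2
        refine (hA _).2 fun n hn => ?_
        rw [MonoidHom.mem_ker]
        exact (hr x.1 x.2 hx2 ⟨n, hNl hn⟩).trans ((hA' _).1 hx2 hn)

end Cfsg.Agent.H80.GbSplb
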