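import Cfsg.Agent.H98.GbL

/-! The Steinberg type characters of the general linear groups. -/

set_option autoImplicit false

namespace Cfsg.Agent.H80.GbTh0a

open Cfsg Finset Cfsg.Agent.H98.GB
open scoped MatrixGroups ComplexConjugate

universe u

theorem ee_succ {A : Type*} [CommRing A] [Algebra ℂ A] (P : ℕ → A) (k : ℕ) : ee P (k + 1) =
    ((k + 1 : ℕ) : ℂ)⁻¹ • ∑ i : Fin (k + 1), ((-1 : ℂ) ^ ((i : ℕ) + 1 + 1) • P (i + 1)) * ee P (k - i) := by
  rw [ee, nw]

theorem ee_zero {A : Type*} [CommRing A] [Algebra ℂ A] (P : ℕ → A) : ee P 0 = 1 := by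
  rw [ee, nw]

theorem mon_single {A : Type*} [CommRing A] {Φ : Type} [Fintype Φ] [DecidableEq Φ]
    (P : Φ → ℕ → A) (φ : Φ) (μ : Multiset ℕ) : mon P (Pi.single φ μ) = (μ.map (P φ)).prod := by
  rw [mon, prod_eq_single φ (fun ψ _ h => by simp [Pi.single_eq_of_ne h]) (by simp),
    Pi.single_eq_same]

theorem wm_single {Φ : Type} [Fintype Φ] [DecidableEq Φ] (dg : Φ → ℕ) (φ : Φ) (μ : Multiset ℕ) :
    wm dg (Pi.single φ μ) = dg φ * μ.sum := by
  rw [wm, sum_eq_single φ (fun ψ _ h => by simp [Pi.single_eq_of_ne h]) (by simp),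
    Pi.single_eq_same]

theorem monOn_single {Φ : Type} [DecidableEq Φ] (φ : Φ) {μ : Multiset ℕ} (h : ∀ r ∈ μ, 0 < r) :
    MonOn (fun _ => True) (Pi.single φ μ : Φ → Multiset ℕ) := fun ψ =>
  ⟨fun r hr => by
    by_cases e : ψ = φ
    · subst e
      exact h r (by simpa using hr)
    · simp [Pi.single_eq_of_ne e] at hr, fun h => absurd trivial h⟩

theorem th0a (hF : FOCKStmt.{u}) (hN : NWEHStmt.{u}) (hO : MORTHStmt.{u}) (hE : ECOPStmt.{u})
    (hG : GENStmt.{u}) (hI : INTStmt.{u}) (hS : SYSStmt.{u}) (hP : DELPStmt.{u})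
    (hD : DELCStmt.{u}) (hT : TWISTStmt.{u}) : TH0aStmt.{u} := by
  intro F _ _ _ C φ k
  obtain ⟨s1, s2, s3⟩ := hS F C
  obtain ⟨n1, n2, -, n4, -, -, -, n8⟩ := hN C.H.A
  obtain ⟨d1, -, d3, -, -, d6, d7⟩ := hD F C.ψ C.hψ
  have fk := hF F 1 C.H
  have e := fun k => hE F 1 C.H (C.dg φ) k (C.pp φ) ((s2 0).pos φ) (fun i hi _ => s1 φ i hi) k le_rfl
  let δ : ℕ → C.H.A →ₗ[ℂ] ℂ := fun n =>
    { toFun := fun x => dlt C.ψ (C.H.ev x n)
      map_add' := fun x y => by rw [map_add, Pi.add_apply, (d7 n _ _ 0).1]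
      map_smul' := fun c x => by
        rw [map_smul, Pi.smul_apply, (d7 n _ 0 c).2, RingHom.id_apply, smul_eq_mul] }
  have h1 : ∀ k, δ (C.dg φ * k) (ee (C.pp φ) k) = 1 := fun k => by
    induction k using Nat.strong_induction_on with
    | _ k ih =>
    rcases k with _ | k
    · rw [ee_zero]
      change dlt C.ψ (C.H.ev 1 0) = 1
      rw [C.H.ev_one, one, Pi.single_eq_same, d6, if_pos (Nat.zero_le 1)]
    · rw [ee_succ, map_smul, map_sum, sum_congr rfl (g := fun _ => 1) fun i _ => ?_]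
      · simp only [sum_const, card_univ, Fintype.card_fin, nsmul_eq_mul, mul_one, smul_eq_mul]
        exact inv_mul_cancel₀ (Nat.cast_ne_zero.2 k.succ_ne_zero)
      have h : C.dg φ * (i + 1) + C.dg φ * (k - i) = C.dg φ * (k + 1) := by
        rw [← mul_add]; congr 1; omega
      rw [smul_mul_assoc, map_smul]
      change _ * dlt C.ψ (C.H.ev _ _) = 1
      rw [fk.ev_mul_hg _ h (s1 φ _ i.1.succ_pos).1, d1 1 _ _ _ h _ _ (C.H.tw _ _) (C.H.tw _ _),
        hP F C φ _ i.1.succ_pos, ← mul_assoc, ← mul_pow]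
      simp only [mul_neg, mul_one, neg_neg, one_pow, one_mul]
      exact ih (k - i) (by omega)
  have h2 : dlt C.ψ (C.eC φ k) = 1 := h1 k
  refine ⟨(e k).1, ?_, h2, fun c hc hφ => ?_, fun φ' k' hφ hk => ?_⟩
  · obtain ⟨R, hR⟩ := (hG F).2.1 C.H
    have g := (hR _).1 ((n2 (C.pp φ) R k).2 (fun j _ => (hR _).2 (hI F C φ j)) k le_rfl) (C.dg φ * k)
    refine (H11.irr_or_neg_of_classInner_self g ((e k).2.2.2 fun i hi hik => ?_)).resolve_right
      fun hn => ?_
    · rw [s3 (C.dg φ * k) φ i φ i trivial trivial hi hi (Nat.mul_le_mul_left _ hik)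
        (Nat.mul_le_mul_left _ hik), if_pos ⟨rfl, rfl⟩]
    · obtain ⟨r, hr⟩ := d3 _ _ (H11.isCharacter_of_irr hn)
      rw [← neg_one_smul ℂ, (d7 _ _ 0 _).2] at hr
      have : ((r + 1 : ℕ) : ℂ) = 0 := by
        push_cast
        rw [← hr]
        rw [Ctx.eC] at h2
        linear_combination -h2
      exact r.succ_ne_zero (Nat.cast_eq_zero.1 this)
  · obtain ⟨T, t1, t2, -⟩ := hT F C c hc
    rw [Ctx.eC, ← t1, (n4 _ T _).2.1]
    exact congrArg (C.H.ev · _) ((n1 _ _ k).2 (fun i hi _ => by simp only [t2 φ i hi, hφ]) k le_rfl)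
  · rw [n8, n8, Hall.ip]
    simp only [map_sum, map_smul, Finset.sum_apply, Pi.smul_apply, H11.classInner_sum_left,
      H11.classInner_sum_right, H11.classInner_smul_left, H11.classInner_smul_right]
    refine sum_eq_zero fun μ' hμ' => mul_eq_zero_of_right _ (sum_eq_zero fun μ hμ =>
      mul_eq_zero_of_right _ ?_)
    obtain ⟨m1, m2⟩ := H19.mem_Par.1 hμ
    obtain ⟨m3, m4⟩ := H19.mem_Par.1 hμ'
    have := (hO F 1 C.H C.Φ C.dg _ _ C.pp 0 1 0 1 _ (s2 _) (s2 _) (s3 _) _ _ (monOn_single φ m2)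
      (monOn_single φ' m4) (le_max_left _ _) (le_max_right _ _)).2
    rw [if_neg, one_mul, one_mul, mon_single, mon_single, wm_single, m1, zero_add] at this
    · exact this
    · intro e
      have e1 := congrFun e φ
      rw [Pi.single_eq_same, Pi.single_eq_of_ne hφ] at e1
      rw [e1] at m1
      exact hk.ne m1

end Cfsg.Agent.H80.GbTh0a
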