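import Cfsg.Agent.H50.L81Defs
import Cfsg.Agent.H50.E83Asm

/-! Project L81, piece CHAR: the composition factors and the label of the torus element. -/

set_option autoImplicit false

namespace Cfsg.Agent.H80.L81Char

open Equiv Cfsg.Lie H37 H40 H34 H29 Module H82 H50.SL2S Finset H50.E83 H50.L81
open H42.Fv (frV)

theorem SE_congr {m m' : ℕ → ℕ} (h : ∀ r < 81, Even r → m r = m' r) (n e : ℕ) :
    SE m n e = SE m' n e :=
  Finset.sum_congr rfl fun a ha => by
    rw [h (2 * a) (by have := Finset.mem_range.1 ha; omega) (even_two_mul a)]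

theorem char (hPar : ParStmt) (hSer : SerStmt) (hMult : MultStmt) (hUni : H50.L81.UniStmt)
    (hFr : FrStmt)
    (hKit : KitStmt) (hX : X41Stmt) (hY4 : Y4Stmt) (hY : Y40Stmt) (hE : EnumStmt) : CharStmt := by
  intro ψ hψ p
  obtain ⟨hox, ht40, ⟨ht1, ht2⟩, -, -, hzx, hzy, -⟩ := hPar.2.2.2 p
  have hm1 : ψ (-1) = 1 := (hψ _).2 (Or.inr rfl)
  have hρ : rho ψ (-1) = 1 := by
    show act (ι (ψ (-1))) = 1
    rw [hm1, map_one, map_one]
  obtain ⟨L0, hL0⟩ := (hSer p V (rho ψ) hρ).2.2 ⊥ [] ⊤ Ser.nil bot_le (fun _ _ _ => trivial)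
  rw [List.append_nil] at hL0
  have hM := hMult p V (rho ψ) hρ ⊤
  obtain ⟨⟨B, hB⟩, k2, -, -⟩ := hKit
  have hrot := hFr p V (rho ψ) hρ frV (hB ψ).2 ⊤ _ (fun _ _ => trivial) (hM L0 hL0)
  have hx41 : x0 p ^ 41 = 1 := hox ▸ pow_orderOf_eq_one _
  obtain ⟨h, f, hl, hc, w, hw, hwf⟩ := ss (ψ (x0 p)) 41 (zx p) (by decide) hzx
    (by rw [← map_pow, hx41, map_one])
  obtain ⟨i, hi, hpi⟩ := hX f hl.1 w hw (fun r => by simpa using hwf r)
  obtain ⟨h', f', hl', hc', -⟩ := ss (ψ (t0 p)) 40 (zy p) (by decide) hzy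
    (by rw [← map_pow, ht40, hm1])
  obtain ⟨j, hj, hpj⟩ := hY4 f' hl'.1
  have ex : ∀ e < 41, SE (fun r => L0.count r) 41 e = cnt 41 f e := fun e he =>
    ((hM L0 hL0).1 e he).symm.trans (k2 _ 41 _ h f hzx hl hc e he)
  have ey : ∀ e < 40, SE (fun r => L0.count r) 40 e = cnt 40 f' e := fun e he =>
    ((hM L0 hL0).2 e he).symm.trans (k2 _ 40 _ h' f' hzy hl' hc' e he)
  obtain ⟨k, hk, hmk⟩ := hE _ hrot i hi (fun e he => (ex e he).trans (hpi e he)) j hj
    (fun e he => by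
      rw [← hpj e he]
      exact Finset.sum_congr rfl fun k hk => ey _ (by have := Finset.mem_range.1 hk; omega))
  rcases hY f' hl'.1 k hk (fun e he => (ey e he).symm.trans (SE_congr hmk _ _)) with
    ⟨hk7, u, hu, hr⟩ | h0
  · refine ⟨k, hk7, fun L hL r hr he => ?_, ?_⟩
    · rw [← hmk r hr he]
      exact hUni _ _ (fun e he => ((hM L hL).1 e he).symm.trans ((hM L0 hL0).1 e he))
        (fun e he => ((hM L hL).2 e he).symm.trans ((hM L0 hL0).2 e he)) r hr he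
    · obtain ⟨n, hn, e⟩ := (C8.split K).exists_lift hu
      have h1 := hl'.conj hn
      rw [e] at h1
      refine ⟨n⁻¹ * h' * n, h1.congr hzy (isAdd_vN _ _) fun r => hr.vN_eq (hl'.1.comp hu) r, ?_⟩
      exact (isConj_iff.2 ⟨n, by group⟩ : IsConj (n⁻¹ * h' * n) h').trans hc'
  · exfalso
    rw [(hl'.eq_one_iff hzy).2 h0, isConj_one_right, map_eq_one_iff _ ι_injective] at hc'
    rcases (hψ _).1 hc' with h1 | h1
    · exact ht1 h1
    · exact ht2 h1

end Cfsg.Agent.H80.L81Char
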