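import Cfsg.Agent.H71.P3Defs

/-!
# A point-transitive group without transvections meets the unipotent radicals trivially
-/

set_option autoImplicit false

namespace Cfsg.Agent.H80.P3Qq

open Cfsg Module Cfsg.Agent.H27 Cfsg.Agent.H71.P3
open scoped Pointwise

variable {F V : Type} [Field F] [AddCommGroup V] [Module F V] (S : Sp F V)
  (K : Subgroup (V ≃ₗ[F] V))

/-- The span of `x` and of the vectors describing the elements of `K` in the radical at `x`. -/
def W (x : V) : Submodule F V :=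
  Submodule.span F {y | y = x ∨ ∃ c, ∃ g ∈ K, S.Ei x y c g}

variable {S K}

theorem ei_conj {h g : V ≃ₗ[F] V} (hh : h ∈ S.G) {x u : V} {c : F} (e : S.Ei x u c g) :
    S.Ei (h x) (h u) c (h * g * h⁻¹) := by
  refine ⟨(hh x u).trans e.1, fun v => ?_⟩
  obtain ⟨v, rfl⟩ := h.surjective v
  rw [LinearEquiv.mul_apply, LinearEquiv.mul_apply,
    show h⁻¹ (h v) = v from h.symm_apply_apply v, e.2, hh, hh]
  simp only [map_add, map_smul]

theorem ei_smul {g : V ≃ₗ[F] V} {x u : V} {a c : F} (ha : a ≠ 0) (e : S.Ei (a • x) u c g) :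
    S.Ei x (a • u) (c * a ^ 2) g := by
  refine ⟨?_, fun v => ?_⟩
  · have := e.1
    simp only [map_smul, LinearMap.smul_apply, smul_eq_mul] at this ⊢
    rw [(mul_eq_zero.1 this).resolve_left ha, mul_zero]
  · rw [e.2]
    simp only [map_smul, smul_eq_mul]
    module

theorem self_mem (x : V) : x ∈ W S K x := Submodule.subset_span (Or.inl rfl)

theorem inv_le (hK : K ≤ S.G) {g : V ≃ₗ[F] V} (hg : g ∈ K) (x : V) :
    g • W S K x ≤ W S K (g x) := by
  rw [smul_def, W, Submodule.map_span, Submodule.span_le]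
  rintro _ ⟨y, rfl | ⟨c, h, hh, e⟩, rfl⟩
  · exact self_mem _
  · exact Submodule.subset_span
      (Or.inr ⟨c, _, mul_mem (mul_mem hg hh) (inv_mem hg), ei_conj (hK hg) e⟩)

theorem inv_eq (hK : K ≤ S.G) {g : V ≃ₗ[F] V} (hg : g ∈ K) (x : V) :
    W S K (g x) = g • W S K x := by
  refine le_antisymm ?_ (inv_le hK hg x)
  have := inv_le hK (inv_mem hg) (g x)
  rw [show g⁻¹ (g x) = x from g.symm_apply_apply x] at this
  rwa [← smul_le_smul (g := g), smul_inv_smul] at this

theorem smul_le {a : F} (ha : a ≠ 0) (x : V) : W S K (a • x) ≤ W S K x := by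
  rw [W, Submodule.span_le]
  rintro y (rfl | ⟨c, h, hh, e⟩)
  · exact Submodule.smul_mem _ _ (self_mem x)
  · exact (Submodule.smul_mem_iff _ ha).1
      (Submodule.subset_span (Or.inr ⟨_, h, hh, ei_smul ha e⟩))

theorem smul_eq {a : F} (ha : a ≠ 0) (x : V) : W S K (a • x) = W S K x := by
  refine le_antisymm (smul_le ha x) ?_
  have := smul_le (S := S) (K := K) (inv_ne_zero ha) (a • x)
  rwa [inv_smul_smul₀ ha] at this

theorem qq (qf : QfStmt) (w1 : W1Stmt) (w2 : W2Stmt) : QqStmt := by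
  intro F V _ _ _ _ _ S K hK pt o2 o3 nt r hr g hg hQ
  by_contra g1
  obtain ⟨u, c, e⟩ := (qf S r hr).1 g hQ
  have hu : u ∉ F ∙ r := fun hu => by
    obtain ⟨a, rfl⟩ := Submodule.mem_span_singleton.1 hu
    have h1 : g = S.t r (2 * a + c) := LinearEquiv.ext fun v => by
      rw [e.2, altTv_apply]
      simp only [map_smul, smul_eq_mul]
      module
    by_cases h2 : 2 * a + c = 0
    · exact g1 (by rw [h1, h2]; exact altTv_zero _ _)
    · exact nt r _ hr h2 (h1 ▸ hg)
  have iso : ∀ x, x ≠ 0 → S.Iso (W S K x) := fun x hx => by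
    have h1 : ∀ y ∈ {y | y = x ∨ ∃ c, ∃ g ∈ K, S.Ei x y c g},
        ∀ z ∈ {y | y = x ∨ ∃ c, ∃ g ∈ K, S.Ei x y c g}, S.B y z = 0 := by
      rintro y (rfl | ⟨c, h, hh, e⟩) z (rfl | ⟨c', h', hh', e'⟩)
      · exact S.alt.self_eq_zero _
      · exact e'.1
      · rw [← S.alt.neg_eq, e.1, neg_zero]
      · by_contra h0
        have h2 := (qf S x hx).2.1 _ _ _ _ _ _ e e'
        refine nt x (-2 * S.B y z) hx (mul_ne_zero (neg_ne_zero.2 S.two_ne_zero) h0) ?_
        rw [← mul_inv_eq_iff_eq_mul.2 h2]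
        exact mul_mem (mul_mem hh hh') (inv_mem (mul_mem hh' hh))
    intro y hy z hz
    have h2 : ∀ y ∈ {y | y = x ∨ ∃ c, ∃ g ∈ K, S.Ei x y c g}, S.B y z = 0 := fun y hy =>
      Submodule.span_le (p := LinearMap.ker (S.B y)).2 (h1 y hy) hz
    exact Submodule.span_le (p := LinearMap.ker (S.B.flip z)).2 h2 hy
  have ws : S.WS K (W S K) (dm (W S K r)) := by
    refine ⟨fun g hg x _ => inv_eq hK hg x, fun a x ha _ => smul_eq ha x, fun x _ => self_mem x,
      iso, fun x hx => ?_, ?_⟩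
    · obtain ⟨h, hh, a, e1⟩ := pt r x hr hx
      have ha : a ≠ 0 := fun e2 => hr (h.injective (by rw [e1, e2, zero_smul, map_zero]))
      rw [← smul_eq ha x, ← e1, inv_eq hK hh, dm_smul]
    · have h1 : (F ∙ r) < W S K r := lt_of_le_of_ne
        ((Submodule.span_singleton_le_iff_mem _ _).2 (self_mem r)) fun e1 =>
          hu (e1 ▸ Submodule.subset_span (Or.inr ⟨c, g, hg, e⟩))
      have h2 := Submodule.finrank_lt_finrank_of_lt h1
      rw [finrank_span_singleton hr] at h2
      exact h2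
  have le : dm (W S K r) ≤ S.k := by
    have h1 : W S K r ≤ S.B.orthogonal (W S K r) := fun y hy z hz => iso r hr z hz y hy
    have h2 := Submodule.finrank_mono h1
    rw [LinearMap.BilinForm.finrank_orthogonal S.nd, S.dim] at h2
    unfold dm
    omega
  rcases le.lt_or_eq with h | h
  · exact w1 S K hK pt o2 o3 _ _ ws h
  · exact (w2 S K hK pt _ (h ▸ ws)).1 r u c hr hu g hg e

end Cfsg.Agent.H80.P3Qq
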