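import Mathlib

/-!
# Products of two regular unipotent maps
-/

set_option autoImplicit false

namespace Cfsg.Agent.H80.RegU

open Module Submodule

universe v

variable {K : Type*} [Field K]

section avoid

variable {V : Type*} [AddCommGroup V] [Module K V]

theorem avoid_step (hK : Nonempty (Fin 4 ↪ K)) {U W₁ W₂ W₃ W₄ : Submodule K V} {x : V} (hx : x ∈ U)
    (h : x ∉ W₁ ∧ x ∉ W₂ ∧ x ∉ W₃) (h4 : ¬ U ≤ W₄) : ∃ x ∈ U, (x ∉ W₁ ∧ x ∉ W₂ ∧ x ∉ W₃) ∧ x ∉ W₄ := by
  by_cases k : x ∈ W₄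
  swap
  · exact ⟨x, hx, h, k⟩
  obtain ⟨y, hy, hy'⟩ := Set.not_subset.1 h4
  obtain ⟨s⟩ := hK
  by_contra! h0
  have h1 : ∀ j, ∃ i : Fin 3, y + s j • x ∈ ![W₁, W₂, W₃] i := fun j => by
    by_contra! h1
    exact hy' ((add_mem_cancel_right (W₄.smul_mem _ k)).1 (h0 _ (add_mem hy (U.smul_mem _ hx)) ⟨h1 0, h1 1, h1 2⟩))
  choose i hi using h1
  obtain ⟨a, b, h2, h3⟩ := Fintype.exists_ne_map_eq_of_card_lt i (by simp)
  have h5 := sub_mem (h3 ▸ hi a) (hi b)
  rw [add_sub_add_left_eq_sub, ← sub_smul, smul_mem_iff _ (sub_ne_zero.2 (s.injective.ne h2))] at h5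
  generalize i b = j at h5
  fin_cases j
  exacts [h.1 h5, h.2.1 h5, h.2.2 h5]

theorem avoid4 (hK : Nonempty (Fin 4 ↪ K)) {U W₁ W₂ W₃ W₄ : Submodule K V} (h1 : ¬ U ≤ W₁) (h2 : ¬ U ≤ W₂)
    (h3 : ¬ U ≤ W₃) (h4 : ¬ U ≤ W₄) : ∃ x ∈ U, (x ∉ W₁ ∧ x ∉ W₂ ∧ x ∉ W₃) ∧ x ∉ W₄ := by
  obtain ⟨x, hx, k⟩ := Set.not_subset.1 h1
  obtain ⟨x, hx, k, k'⟩ := avoid_step hK hx ⟨k, k, k⟩ h2
  obtain ⟨x, hx, k, k'⟩ := avoid_step hK hx ⟨k.1, k', k'⟩ h3
  exact avoid_step hK hx ⟨k.1, k.2.1, k'⟩ h4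

/-- Neither scalar nor a transvection. -/
def Good (D : End K V) : Prop := (∀ a : K, ∃ y, D y ≠ a • y) ∧ ∀ c, ∃ y, D y - y ∉ K ∙ c

theorem exists_transvection {D : End K V} {c : V} (h : ∀ y, D y - y ∈ K ∙ c) :
    ∃ φ : Dual K V, D = LinearMap.transvection φ c := by
  rcases eq_or_ne c 0 with rfl | h0
  · exact ⟨0, LinearMap.ext fun y => by simpa [sub_eq_zero] using h y⟩
  refine ⟨(LinearEquiv.coord K V c h0).toLinearMap ∘ₗ (D - 1).codRestrict _ h, LinearMap.ext fun y => ?_⟩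
  rw [LinearMap.transvection.apply, ← sub_eq_iff_eq_add']
  exact (LinearEquiv.coord_apply_smul K V c h0 ⟨_, h y⟩).symm

theorem sq_zero [FiniteDimensional K V] {D : End K V} (hD : LinearMap.det D = 1) {c : V} (h : ∀ y, D y - y ∈ K ∙ c)
    (y : V) : D (D y - y) = D y - y := by
  obtain ⟨φ, rfl⟩ := exists_transvection h
  simp only [LinearMap.transvection.det, add_eq_left] at hD
  simp [LinearMap.transvection.apply, hD]

/-- The functionals for which the reduced map is not good. -/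
def Bad (D : End K V) (e : V) (f : Dual K V) : Prop := f e = 1 ∧ f (D e) = 1 ∧
  ((∃ a : K, ∀ v, f v = 0 → D v - f (D v) • D e = a • v) ∨ ∃ u, ∀ v, f v = 0 → ∃ w, D v - f (D v) • D e - v = w ∧
    w ∈ K ∙ u ∧ D w - f (D w) • D e = w)

theorem bad_agree {D : End K V} {e : V} (hD : Function.Injective D)
    (hi : ∀ a b : K, a • e + b • D e = 0 → a = 0 ∧ b = 0) (h3 : ∃ y, y ∉ span K {e, D e})
    (hR : ∃ v, D v - v ∉ span K {e, D e}) :
    ∃ y, y ∉ span K {e, D e} ∧ ∀ f₁ f₂, Bad D e f₁ → Bad D e f₂ → f₁ y = f₂ y := by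
  have m1 : e ∈ span K {e, D e} := subset_span (by simp)
  have m2 : D e ∈ span K {e, D e} := subset_span (by simp)
  by_cases h : D (D e) ∈ span K {e, D e}
  swap
  · have key : ∀ f, Bad D e f → ∃ s : K, D (D (D e)) - e = (f (D (D e)) + 2) • D (D e) + s • D e := by
      rintro f ⟨h1, h2, ⟨a, ha⟩ | ⟨u, hu⟩⟩
      · refine absurd ?_ h
        have := ha (D e - e) (by simp [h1, h2])
        rw [map_sub, sub_sub, sub_eq_iff_eq_add] at this
        exact this ▸ add_mem (smul_mem _ _ (sub_mem m2 m1)) (add_mem m2 (smul_mem _ _ m2))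
      · obtain ⟨_, rfl, -, k⟩ := hu (D e - e) (by simp [h1, h2])
        generalize f (D (D (D e - e) - f (D (D e - e)) • D e - (D e - e))) = s at k
        simp only [map_sub, map_smul, h2] at k
        exact ⟨s - f (D (D e)) - 2, by linear_combination (norm := module) k⟩
    refine ⟨_, h, fun f₁ f₂ k1 k2 => ?_⟩
    obtain ⟨s, hs⟩ := key f₁ k1
    obtain ⟨t, ht⟩ := key f₂ k2
    by_contra k
    refine h ((smul_mem_iff _ (sub_ne_zero.2 k)).1 ?_)
    rw [show (f₁ (D (D e)) - f₂ (D (D e))) • D (D e) = (t - s) • D e by linear_combination (norm := module) ht - hs]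
    exact smul_mem _ _ m2
  obtain ⟨β, α, h⟩ := mem_span_pair.1 h
  have hβ : β ≠ 0 := by
    rintro rfl
    have := hi (-α) 1 (hD (by rw [map_add, map_smul, map_smul, ← h, map_zero]; module))
    exact one_ne_zero this.2
  have h0 : ∀ f : Dual K V, f e = 1 → f (D e) = 1 → D (D e - e) - f (D (D e - e)) • D e = -β • (D e - e) :=
    fun f h1 h2 => by
    simp only [map_sub, ← h, map_add, map_smul, h1, smul_eq_mul, mul_one]
    simp only [h, h2]
    rw [← h]
    module
  have h4 : ∀ (f : Dual K V) (a : K) (v : V), D (v - f v • e) - f (D (v - f v • e)) • D e = a • (v - f v • e) →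
      ∃ s : K, D v - a • v = -(a * f v) • e + s • D e := fun f a v k =>
    ⟨f v + f (D (v - f v • e)), by rw [map_sub D, map_smul] at k ⊢; linear_combination (norm := module) k⟩
  have key : ∀ f, Bad D e f → (∀ v, D v + β • v ∈ span K {e, D e} → ∃ s : K, D v + β • v = (β * f v) • e + s • D e) ∧
      ∃ y, y ∉ span K {e, D e} ∧ D y + β • y ∈ span K {e, D e} := by
    rintro f ⟨h1, h2, ⟨a, ha⟩ | ⟨u, hu⟩⟩
    · have h5 := (ha (D e - e) (by simp [h1, h2])).symm.trans (h0 f h1 h2)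
      obtain rfl : a = -β := by
        have := (hi (-(a + β)) (a + β) (by linear_combination (norm := module) h5)).2
        linear_combination this
      have h6 : ∀ v, ∃ s : K, D v + β • v = (β * f v) • e + s • D e := fun v => by
        simpa using h4 f _ v (ha _ (by simp [h1]))
      exact ⟨fun v _ => h6 v, h3.imp fun y hy => ⟨hy, (h6 y).elim fun s hs =>
        hs ▸ add_mem (smul_mem _ _ m1) (smul_mem _ _ m2)⟩⟩
    · obtain rfl : β = -1 := by
        obtain ⟨_, rfl, -, k⟩ := hu (D e - e) (by simp [h1, h2])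
        rw [h0 f h1 h2, show -β • (D e - e) - (D e - e) = (-β - 1) • (D e - e) by module, map_smul, map_smul,
          smul_eq_mul, mul_smul, ← smul_sub, h0 f h1 h2] at k
        have := (hi (-(β + 1) ^ 2) ((β + 1) ^ 2) (by linear_combination (norm := module) k)).2
        linear_combination pow_eq_zero_iff two_ne_zero |>.1 this
      obtain ⟨v₁, hv⟩ := hR
      obtain ⟨w, k1, k2, k3⟩ := hu (v₁ - f v₁ • e) (by simp [h1])
      have h5 : w ∉ span K {e, D e} := fun k => hv (by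
        convert add_mem (add_mem k (smul_mem _ (f (D (v₁ - f v₁ • e))) m2)) (smul_mem _ (f v₁) (sub_mem m2 m1)) using 1
        rw [← k1, map_sub D, map_smul]
        module)
      refine ⟨fun v k => ?_, w, h5, ?_⟩
      · obtain ⟨w', l1, l2, -⟩ := hu (v - f v • e) (by simp [h1])
        have h6 : w' ∈ span K {e, D e} := by
          convert sub_mem (sub_mem k (smul_mem _ (f (D (v - f v • e))) m2)) (smul_mem _ (f v) (sub_mem m2 m1)) using 1
          rw [← l1, map_sub D, map_smul]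
          module
        obtain ⟨a, rfl⟩ := mem_span_singleton.1 k2
        obtain ⟨b, rfl⟩ := mem_span_singleton.1 l2
        have h7 : b = 0 := by_contra fun k => h5 (smul_mem _ _ ((smul_mem_iff _ k).1 h6))
        rw [h7, zero_smul, sub_eq_zero] at l1
        simpa [sub_eq_add_neg] using h4 f 1 v (by rw [l1, one_smul])
      · rw [show D w + (-1 : K) • w = f (D w) • D e by linear_combination (norm := module) k3]
        exact smul_mem _ _ m2
  by_cases h5 : ∃ f, Bad D e f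
  swap
  · exact h3.imp fun y hy => ⟨hy, fun f _ k => (h5 ⟨f, k⟩).elim⟩
  obtain ⟨f, hf⟩ := h5
  obtain ⟨y, k1, k2⟩ := (key f hf).2
  refine ⟨y, k1, fun f₁ f₂ l1 l2 => ?_⟩
  obtain ⟨s, hs⟩ := (key f₁ l1).1 y k2
  obtain ⟨t, ht⟩ := (key f₂ l2).1 y k2
  have := (hi (β * f₁ y - β * f₂ y) (s - t) (by linear_combination (norm := module) ht - hs)).1
  exact mul_left_cancel₀ hβ (sub_eq_zero.1 this)

theorem exists_eig [FiniteDimensional K V] [Nontrivial V] {D : End K V} (h : Good D) :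
    ∃ A B : Submodule K V, ¬ ⊤ ≤ A ∧ ¬ ⊤ ≤ B ∧ (∀ (v : V) (a : K), D v = a • v → v ∈ A ∨ v ∈ B) ∧
      (LinearMap.range (D - 1) ≠ ⊤ → LinearMap.range (D - 1) ≤ B) := by
  have key : ∀ a : K, ¬ ⊤ ≤ LinearMap.ker (D - a • 1) ∧ ∀ (v : V) (b : K), D v = b • v →
      v ∈ LinearMap.ker (D - a • 1) ∨ v ∈ LinearMap.range (D - a • 1) := fun a => by
    refine ⟨fun k => (h.1 a).elim fun y hy => hy (by simpa [sub_eq_zero] using k (mem_top (x := y))), fun v b e => ?_⟩
    rcases eq_or_ne b a with rfl | k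
    · exact .inl (by simp [e])
    · exact .inr ⟨(b - a)⁻¹ • v, by simp [e, ← sub_smul, smul_smul, ← mul_sub, sub_ne_zero.2 k]⟩
  by_cases h1 : LinearMap.range (D - 1) = ⊤
  swap
  · exact ⟨_, _, (key 1).1, by rwa [one_smul, top_le_iff], (key 1).2, fun _ => by rw [one_smul]⟩
  by_cases h2 : ∃ a : K, LinearMap.range (D - a • 1) ≠ ⊤
  · obtain ⟨a, ha⟩ := h2
    exact ⟨_, _, (key a).1, by rwa [top_le_iff], (key a).2, fun k => (k h1).elim⟩
  push Not at h2
  refine ⟨⊥, ⊥, by simp, by simp, fun v a e => .inl ?_, fun k => (k h1).elim⟩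
  exact LinearMap.ker_eq_bot_iff_range_eq_top.2 (h2 a) ▸ (by simp [e] : v ∈ LinearMap.ker (D - a • 1))

end avoid

theorem main (hK : Nonempty (Fin 4 ↪ K)) (n : ℕ) : ∀ (V : Type v) [AddCommGroup V] [Module K V] [FiniteDimensional K V],
    finrank K V = n + 1 → ∀ D : End K V, LinearMap.det D = 1 → (n ≠ 0 → Good D) → ∀ (c : V) (r : Dual K V),
    c ≠ 0 → r ≠ 0 → ∃ M N : End K V, D = (1 + M) * (1 + N) ∧ M ^ (n + 1) = 0 ∧ N ^ (n + 1) = 0 ∧
      (M ^ n) c ≠ 0 ∧ ∃ v, r ((N ^ n) v) ≠ 0 := by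
  induction n with
  | zero =>
    intro V _ _ _ hn D hD _ c r hc hr
    obtain ⟨a, rfl⟩ := LinearMap.existsUnique_eq_smul_id_of_finrank_eq_one hn D |>.exists
    rw [LinearMap.det_smul, hn, LinearMap.det_id] at hD
    exact ⟨0, 0, by rw [show a = 1 by simpa using hD, one_smul, add_zero, mul_one]; rfl, by simp, by simp, hc, by simpa [LinearMap.ext_iff] using hr⟩
  | succ n ih =>
  intro V _ _ _ hn D hD hG c r hc hr
  have hG := hG n.succ_ne_zero
  have : Nontrivial V := ⟨⟨c, 0, hc⟩⟩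
  have hinj : Function.Injective D := (End.isUnit_iff _).1 ((LinearMap.isUnit_iff_isUnit_det _).2 (hD ▸ isUnit_one)) |>.1
  obtain ⟨A, B, hA, hB, h1, h2⟩ := exists_eig hG
  obtain ⟨e, -, ⟨e1, e2, e3⟩, e4⟩ := avoid4 hK (W₁ := LinearMap.ker r) (W₂ := (K ∙ c).comap (D - 1))
    (by rwa [top_le_iff, LinearMap.ker_eq_top]) (fun k => (hG.2 c).elim fun y hy => hy (mem_comap.1 (k (mem_top (x := y))))) hA hB
  have hi : ∀ a b : K, a • e + b • D e = 0 → a = 0 ∧ b = 0 := fun a b k => by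
    have h3 : b = 0 := by_contra fun h3 => (h1 e (-(b⁻¹ * a)) (by
      rw [← one_smul K (D e), ← inv_mul_cancel₀ h3]; linear_combination (norm := module) b⁻¹ • k)).elim e3 e4
    exact ⟨by simpa [h3, show e ≠ 0 from fun k => e3 (k ▸ zero_mem _)] using k, h3⟩
  have h3 : ∀ z, z ∉ K ∙ (D e - e) → ¬ LinearMap.ker (Dual.eval K V (D e - e)) ≤ LinearMap.ker (Dual.eval K V z) :=
    fun z hz k => by
    obtain ⟨f, k1, k2⟩ := exists_dual_map_eq_bot_of_notMem hz inferInstance
    exact k1 (k (show f _ ∈ (⊥ : Submodule K K) from k2 ▸ mem_map_of_mem (mem_span_singleton_self _)))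
  have h4 : e ∉ K ∙ (D e - e) := fun k => by
    obtain ⟨a, ha⟩ := mem_span_singleton.1 k
    have := hi (-a - 1) a (by linear_combination (norm := module) ha)
    simp [this.2] at this
  have h5 : c ∉ K ∙ (D e - e) := fun k => by
    obtain ⟨a, rfl⟩ := mem_span_singleton.1 k
    exact e2 (mem_span_singleton.2 ⟨a⁻¹, by rw [smul_smul, inv_mul_cancel₀ (left_ne_zero_of_smul hc), one_smul]; rfl⟩)
  obtain ⟨y, hy⟩ := hG.2 (D e - e)
  have m1 : e ∈ span K {e, D e} := subset_span (by simp)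
  have m2 : D e ∈ span K {e, D e} := subset_span (by simp)
  obtain ⟨z, hz, hz'⟩ : ∃ z, z ∉ K ∙ (D e - e) ∧ (n ≠ 0 → ∀ f, Bad D e f → f z = 0) := by
    rcases eq_or_ne n 0 with rfl | h0
    · exact ⟨e, h4, fun k => (k rfl).elim⟩
    have h6 : span K {e, D e} ≠ ⊤ := fun k => by
      classical
      have := finrank_span_finset_le_card (R := K) {e, D e}
      rw [Set.finrank, Finset.coe_pair, k, finrank_top, hn] at this
      have := Finset.card_le_two (a := e) (b := D e)
      omega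
    obtain ⟨w, k1, k2⟩ := bad_agree hinj hi (by simpa [eq_top_iff'] using h6) (by
      by_contra! k
      obtain ⟨a, b, hab⟩ := mem_span_pair.1 (k y)
      have h7 : a + b ≠ 0 := fun k => hy (mem_span_singleton.2 ⟨b, by
        rw [← hab, eq_neg_of_add_eq_zero_left k]; module⟩)
      refine e4 (h2 (fun k' => h6 (top_le_iff.1 (k' ▸ LinearMap.range_le_iff_comap.2 (eq_top_iff'.2 k))))
        ((smul_mem_iff _ h7).1 ⟨y - b • e, ?_⟩))
      simp only [map_sub, map_smul, LinearMap.sub_apply, End.one_apply, ← hab]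
      module)
    by_cases h7 : ∃ f, Bad D e f
    swap
    · exact ⟨e, h4, fun _ f k => (h7 ⟨f, k⟩).elim⟩
    obtain ⟨f₀, h7⟩ := h7
    exact ⟨w - f₀ w • e, fun k => k1 ((Submodule.sub_mem_iff_left _ (smul_mem _ _ m1)).1
      ((span_singleton_le_iff_mem _ _).2 (sub_mem m2 m1) k)), fun _ f k => by simp [k.1, k2 f f₀ k h7]⟩
  obtain ⟨f, f0, f1, f2, f3, f4⟩ : ∃ f : Dual K V, f e = 1 ∧ f (D e) = 1 ∧ f c ≠ 0 ∧ f (D y - y) ≠ 0 ∧ f z ≠ 0 := by
    obtain ⟨f, k0, ⟨k1, k2, k3⟩, k4⟩ := avoid4 hK (h3 _ h4) (h3 _ h5) (h3 _ hy) (h3 _ hz)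
    simp only [LinearMap.mem_ker, Dual.eval_apply] at k0 k1 k2 k3 k4
    rw [map_sub, sub_eq_zero] at k0
    refine ⟨(f e)⁻¹ • f, ?_, ?_, ?_, ?_, ?_⟩ <;> simp only [LinearMap.smul_apply, smul_eq_mul, k0, inv_mul_cancel₀ k1]
    exacts [mul_ne_zero (inv_ne_zero k1) k2, mul_ne_zero (inv_ne_zero k1) k3, mul_ne_zero (inv_ne_zero k1) k4]
  let T := D * LinearMap.transvection (f - f ∘ₗ D) e
  have hT : ∀ v, T v = D v + (f v - f (D v)) • D e := fun v => by simp [T, LinearMap.transvection.apply]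
  have hT1 : ∀ v, f (T v) = f v := fun v => by simp [hT, f1]
  have hT2 : LinearMap.ker f ≤ (LinearMap.ker f).comap T := fun v hv => (hT1 v).trans hv
  let D' : End K (LinearMap.ker f) := T.restrict hT2
  have hD1 : ∀ v, (D' v : V) = D v - f (D v) • D e := fun v => by
    rw [show (D' v : V) = T v from rfl, hT, v.2, zero_sub, neg_smul, sub_eq_add_neg]
  have hD2 : LinearMap.det D' = 1 := by
    have := T.det_eq_det_mul_det _ hT2
    rw [show (LinearMap.ker f).mapQ _ T hT2 = LinearMap.id from LinearMap.ext fun v => Quotient.inductionOn' v fun v =>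
      (Submodule.Quotient.eq _).2 (by simp [hT1]), LinearMap.det_id, mul_one] at this
    simp [D', ← this, T, hD, f0, f1]
  let π : V →ₗ[K] LinearMap.ker f := (LinearMap.id - f.smulRight e).codRestrict _ fun v => by simp [f0]
  have hπ : ∀ v, (π v : V) = v - f v • e := fun _ => rfl
  have hπ1 : ∀ w : LinearMap.ker f, π w = w := fun w => Subtype.ext (by rw [hπ, w.2, zero_smul, sub_zero])
  have hπ2 : π e = 0 := Subtype.ext (by simp [hπ, f0])
  let c' : LinearMap.ker f := ⟨D e - e, by simp [f0, f1]⟩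
  let r' : Dual K (LinearMap.ker f) := f ∘ₗ D ∘ₗ (LinearMap.ker f).subtype
  obtain ⟨M, N, k1, k2, k3, k4, v₀, k5⟩ := ih (LinearMap.ker f) (by
      have := Dual.finrank_ker_add_one_of_ne_zero (f := f) (by rintro rfl; simp at f0)
      omega) D' hD2 (fun h0 => by
      by_contra k
      refine f4 (hz' h0 f ⟨f0, f1, ?_⟩)
      simp only [Good, not_and_or, not_forall, not_exists, not_not] at k
      refine k.imp (fun ⟨a, ha⟩ => ⟨a, fun v hv => (hD1 ⟨v, hv⟩).symm.trans (congrArg Subtype.val (ha _))⟩)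
        fun ⟨u, hu⟩ => ⟨u, fun v hv => ⟨(D' ⟨v, hv⟩ - ⟨v, hv⟩ : LinearMap.ker f), by rw [Submodule.coe_sub, hD1], ?_,
          (hD1 _).symm.trans (congrArg Subtype.val (sq_zero hD2 hu _))⟩⟩
      obtain ⟨a, ha⟩ := mem_span_singleton.1 (hu ⟨v, hv⟩)
      exact mem_span_singleton.2 ⟨a, congrArg Subtype.val ha⟩) c' r'
    (fun k => one_ne_zero (hi (-1) 1 (by simpa [c', neg_add_eq_sub] using k)).2)
    (fun k => f3 (by simpa [r', hπ, f1] using DFunLike.congr_fun k (π y)))
  let M₁ : End K V := (LinearMap.ker f).subtype ∘ₗ (f.smulRight c' + M ∘ₗ π)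
  let N₁ : End K V := (r' ∘ₗ π).smulRight e + (LinearMap.ker f).subtype ∘ₗ N ∘ₗ π
  have l1 : ∀ v, M₁ v = (f v • c' + M (π v) : LinearMap.ker f) := fun _ => rfl
  have l2 : ∀ v, N₁ v = r' (π v) • e + N (π v) := fun _ => rfl
  have l3 : ∀ w : LinearMap.ker f, M₁ w = M w := fun w => by rw [l1, w.2, hπ1, zero_smul, zero_add]
  have l4 : ∀ (k : ℕ) v, (M₁ ^ (k + 1)) v = (M ^ k) (f v • c' + M (π v)) := fun k v => by
    induction k with
    | zero => rfl
    | succ k ih => rw [pow_succ', End.mul_apply, ih, l3, pow_succ', End.mul_apply]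
  have l5 : ∀ (k : ℕ) v, (N₁ ^ (k + 1)) v = r' ((N ^ k) (π v)) • e + (N ^ (k + 1)) (π v) := fun k v => by
    induction k with
    | zero => rfl
    | succ k ih => rw [pow_succ', End.mul_apply, ih, l2, map_add, map_smul, hπ1, hπ2, smul_zero, zero_add,
        pow_succ' N (k + 1), End.mul_apply]
  refine ⟨M₁, N₁, LinearMap.ext fun v => ?_, LinearMap.ext fun v => by simp [l4, k2], LinearMap.ext fun v => ?_, ?_,
    v₀, ?_⟩
  · have h6 : (1 + N₁) v = (f v + r' (π v)) • e + ((1 + N) (π v) : LinearMap.ker f) := by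
      simp only [LinearMap.add_apply, End.one_apply, l2, coe_add, hπ]
      module
    have h7 := hD1 (π v)
    rw [k1, End.mul_apply, LinearMap.add_apply 1 M, coe_add, ← l3, End.one_apply] at h7
    rw [End.mul_apply, h6, map_add, map_smul, LinearMap.add_apply 1 M₁ e, l1, hπ2, f0]
    rw [LinearMap.add_apply, End.one_apply, End.one_apply, h7]
    simp only [r', c', hπ, LinearMap.comp_apply, subtype_apply, map_sub D, map_smul, map_zero, add_zero, one_smul]
    module
  · rw [l5, k3, pow_succ, k3]; simp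
  · rw [l4, map_add, ← End.mul_apply, ← pow_succ, k2, map_smul]
    simpa [f2] using k4
  · rw [l5, k3, hπ1]
    simpa [k5] using e1

section top

variable {V : Type v} [AddCommGroup V] [Module K V] [FiniteDimensional K V] {n : ℕ}

omit [FiniteDimensional K V] in
theorem exists_chain (hn : finrank K V = n + 1) {N : End K V} (h : N ^ (n + 1) = 0) (h0 : N ^ n ≠ 0) :
    ∃ b : Basis (Fin (n + 1)) K V, ∀ i j, LinearMap.toMatrix b b (1 + N) i j =
      if i = j then 1 else if j.val = i.val + 1 then 1 else 0 := by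
  obtain ⟨c, hc⟩ := DFunLike.ne_iff.1 h0
  have h1 : ∀ k, n < k → (N ^ k) c = 0 := fun k hk => by rw [pow_eq_zero_of_le hk h]; rfl
  have h2 : LinearIndependent K fun i : Fin (n + 1) => (N ^ (n - i)) c := by
    refine Fintype.linearIndependent_iff.2 fun a ha i => ?_
    induction i using WellFoundedGT.induction with
    | ind i ih =>
    have := congrArg (N ^ (i : ℕ)) ha
    simp only [map_sum, map_smul, map_zero, ← End.mul_apply, ← pow_add] at this
    rw [Finset.sum_eq_single i (fun j _ k => ?_) (by simp), show i + (n - i) = n by omega] at this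
    · exact (smul_eq_zero.1 this).resolve_right hc
    rcases lt_or_gt_of_ne k with k | k
    · rw [h1 _ (by omega), smul_zero]
    · rw [ih j k, zero_smul]
  let b := basisOfLinearIndependentOfCardEqFinrank h2 (by simp [hn])
  have hb : ∀ i, b i = (N ^ (n - i)) c := fun i => by simp [b]
  refine ⟨b, fun i j => ?_⟩
  rw [LinearMap.toMatrix_apply, LinearMap.add_apply, End.one_apply, map_add, Finsupp.add_apply, b.repr_self]
  induction j using Fin.cases with
  | zero =>
    rw [hb, ← End.mul_apply, ← pow_succ', h1 _ (by simp)]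
    simp [Finsupp.single_apply, eq_comm]
  | succ j =>
    rw [show N (b j.succ) = b j.castSucc by
      rw [hb, hb, ← End.mul_apply, ← pow_succ', Fin.val_succ, Fin.val_castSucc]; congr 2; omega, b.repr_self]
    simp only [Finsupp.single_apply, Fin.ext_iff, Fin.val_succ, Fin.val_castSucc]
    split_ifs <;> first | omega | simp

theorem top (hK : Nonempty (Fin 4 ↪ K)) (hn : finrank K V = n + 1) (h2 : 2 ≤ n) {D : End K V}
    (hD : LinearMap.det D = 1) (h : ∀ a : K, ∃ y, D y ≠ a • y) : ∃ M N : End K V, D = (1 + M) * (1 + N) ∧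
      M ^ (n + 1) = 0 ∧ N ^ (n + 1) = 0 ∧ M ^ n ≠ 0 ∧ N ^ n ≠ 0 := by
  classical
  by_cases h1 : ∀ c, ∃ y, D y - y ∉ K ∙ c
  · let b := finBasisOfFinrankEq K V hn
    obtain ⟨M, N, k1, k2, k3, k4, v, k5⟩ := main hK n V hn D hD (fun _ => ⟨h, h1⟩) (b 0) (b.coord 0) (b.ne_zero 0)
      fun k => by simpa using DFunLike.congr_fun k (b 0)
    exact ⟨M, N, k1, k2, k3, fun k => k4 (by simp [k]), fun k => k5 (by simp [k])⟩
  push Not at h1
  obtain ⟨u, hu⟩ := h1
  obtain ⟨φ, rfl⟩ := exists_transvection hu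
  obtain ⟨s, b₀, i, j, k, rfl, rfl⟩ := exists_basis_of_pairing_eq_zero (f := φ) (v := u) (by simpa using hD)
    (by rintro rfl; simpa using h 1) (by rintro rfl; simpa using h 1)
  obtain ⟨σ, h3, h4⟩ : ∃ σ : s ≃ Fin (n + 1), σ i = 0 ∧ σ j = Fin.last n := by
    let σ := b₀.indexEquiv (finBasisOfFinrankEq K V hn)
    let τ := σ.trans (Equiv.swap (σ i) 0)
    have e1 : τ i = 0 := by simp [τ]
    refine ⟨τ.trans (Equiv.swap (τ j) (Fin.last n)), ?_, by simp⟩
    rw [Equiv.trans_apply, e1]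
    exact Equiv.swap_apply_of_ne_of_ne (e1 ▸ τ.injective.ne k) (Fin.ne_of_val_ne (by simp; omega))
  let b := b₀.reindex σ
  let N : End K V := b.constr K (Fin.cases 0 fun i => b i.castSucc)
  have h5 : ∀ (k : ℕ) (i : Fin (n + 1)), (N ^ k) (b i) = if k ≤ i then b ⟨i - k, by omega⟩ else 0 := fun k => by
    induction k with
    | zero => simp
    | succ k ih =>
      intro i
      rw [pow_succ, End.mul_apply, Basis.constr_basis]
      induction i using Fin.cases with
      | zero => simp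
      | succ i => simp [ih]
  have h6 : N ^ (n + 1) = 0 := b.ext fun i => by rw [h5, if_neg (by omega)]; rfl
  have h7 : LinearMap.transvection (b₀.coord j) (b₀ i) = 1 + N ^ n := b.ext fun l => by
    have e1 : b₀ i = b 0 := by simp [b, ← h3]
    have e2 : b₀.coord j (b l) = if n ≤ l then 1 else 0 := by
      simp only [b, Basis.reindex_apply, Basis.coord_apply, Basis.repr_self, Finsupp.single_apply, Equiv.symm_apply_eq,
        h4, Fin.ext_iff, Fin.val_last]
      congr 1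
      exact propext (by omega)
    rw [LinearMap.transvection.apply, LinearMap.add_apply, h5, e1, e2]
    split_ifs
    · rw [one_smul]; congr 2; exact Fin.ext (by simp; omega)
    · simp
  have h8 : N ^ n ≠ 0 := fun k => b.ne_zero _ (by simpa [k] using (h5 n (Fin.last n)).symm)
  have h9 : IsNilpotent N := ⟨_, h6⟩
  obtain ⟨S, hS⟩ := h9.isUnit_one_add
  obtain ⟨U, hU⟩ := (h9.pow_of_pos (n := n - 1) (by omega)).isUnit_sub_one
  have c1 : Commute N ((U * S⁻¹ : (End K V)ˣ) : End K V) :=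
    Commute.mul_right (hU ▸ ((Commute.refl N).pow_right _).sub_right (Commute.one_right N))
      (Commute.units_inv_right (hS ▸ (Commute.one_right N).add_right (Commute.refl N)))
  refine ⟨N * (U * S⁻¹ : (End K V)ˣ), N, ?_, by rw [c1.mul_pow, h6, zero_mul], h6, ?_, h8⟩
  · rw [h7, add_mul, one_mul, Units.val_mul, ← hS, mul_assoc, Units.inv_mul_cancel_right, hS, hU, mul_sub,
      ← pow_succ', Nat.sub_add_cancel (by omega), mul_one]
    abel
  · rwa [c1.mul_pow, ← Units.val_pow_eq_pow_val, Ne, Units.mul_left_eq_zero]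

end top

theorem conj_J {n : ℕ} {J : GL (Fin (n + 1)) K} (hJ : ∀ i j, (J : Matrix (Fin (n + 1)) (Fin (n + 1)) K) i j =
    if i = j then 1 else if j.val = i.val + 1 then 1 else 0) {N : End K (Fin (n + 1) → K)} (h : N ^ (n + 1) = 0)
    (h0 : N ^ n ≠ 0) : ∃ x : GL (Fin (n + 1)) K, LinearMap.toMatrix' (1 + N) = (x * J * x⁻¹ : GL _ K) := by
  obtain ⟨b, hb⟩ := exists_chain (by simp) h h0
  refine ⟨⟨(Pi.basisFun K _).toMatrix b, b.toMatrix (Pi.basisFun K _), by simp, by simp⟩, ?_⟩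
  rw [← LinearMap.toMatrix_eq_toMatrix', ← basis_toMatrix_mul_linearMap_toMatrix_mul_basis_toMatrix _ b _ b,
    show LinearMap.toMatrix b b (1 + N) = J from Matrix.ext fun i j => (hb i j).trans (hJ i j).symm]
  rfl

end Cfsg.Agent.H80.RegU
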