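import Cfsg.Agent.H58.SWDefs
import Cfsg.Agent.H26.SLBasic

/-! Project SW, piece IRRL: irreducibility kit and uniqueness of the induced data, linear case. -/

set_option autoImplicit false
set_option linter.unusedVariables false
set_option linter.unusedSectionVars false
open Matrix Cfsg
open scoped commutatorElement

namespace Cfsg.Agent.H80.SwIrrL

open Cfsg.Agent.H58.SW

variable {F : Type} [Field F] [Fintype F] [DecidableEq F] {n : ℕ}

/-- the inclusion of `SL` -/
abbrev tg : SpecialLinearGroup (Fin n) F →* Gl n F := SpecialLinearGroup.toGL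

theorem memS {c : Cl F n} (ka : KA c) (hu : c.u = false) (x : Gl n F) :
    x ∈ c.S ↔ (x : Mt n F).det = 1 := by
  rw [ka.mem_S, ka.mem_St]
  simp [hu]

theorem tg_mem {c : Cl F n} (ka : KA c) (hu : c.u = false) (y : SpecialLinearGroup (Fin n) F) :
    tg y ∈ c.S := (memS ka hu _).2 y.2

theorem ex_tg {c : Cl F n} (ka : KA c) (hu : c.u = false) {x : Gl n F} (hx : x ∈ c.S) :
    ∃ y, tg y = x := ⟨⟨x, (memS ka hu x).1 hx⟩, Units.ext rfl⟩

theorem S_eq {c : Cl F n} (ka : KA c) (hu : c.u = false) : c.S = (⊤ : Subgroup _).map tg := by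
  ext x
  constructor
  · intro hx
    obtain ⟨y, rfl⟩ := ex_tg ka hu hx
    exact ⟨y, trivial, rfl⟩
  · rintro ⟨y, -, rfl⟩
    exact tg_mem ka hu y

theorem cnd (c : Cl F n) (hu : c.u = false) :
    3 ≤ Fintype.card (Fin n) ∨ ∃ x : F, x ≠ 0 ∧ x ^ 2 ≠ 1 := by
  rw [Fintype.card_fin]
  by_cases h3 : 3 ≤ n
  · exact Or.inl h3
  right
  have h2 : n = 2 := by have := c.hn; omega
  have h4 := (c.hn2 h2).2
  have hq := c.hq
  simp only [hu, Bool.false_eq_true, if_false] at hq
  by_contra h
  push Not at h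
  have hs : (Finset.univ : Finset F) ⊆ {0, 1, -1} := by
    intro x _
    by_cases hx : x = 0
    · simp [hx]
    · rcases sq_eq_one_iff.1 (h x hx) with h1 | h1 <;> simp [h1]
  have := (Finset.card_le_card hs).trans Finset.card_le_three
  rw [Finset.card_univ] at this
  omega

theorem cenZ {c : Cl F n} (ka : KA c) (hu : c.u = false) {y : SpecialLinearGroup (Fin n) F}
    (hy : y ∈ Subgroup.center (SpecialLinearGroup (Fin n) F)) : tg y ∈ c.Z := by
  obtain ⟨r, h1, h2⟩ := Matrix.SpecialLinearGroup.mem_center_iff.1 hy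
  rw [ka.mem_Z]
  refine ⟨r, ⟨?_, by simp [hu]⟩, ?_⟩
  · rintro rfl
    have := c.hn
    rw [Fintype.card_fin, zero_pow (by omega)] at h1
    exact zero_ne_one h1
  · show (y : Mt n F) = _
    rw [← h2, scalar_apply, smul_one_eq_diagonal]

/-- the elementary transvection in `GL` -/
abbrev tv {i j : Fin n} (h : i ≠ j) (a : F) : Gl n F := tg (SpecialLinearGroup.transvection h a)

theorem tv_coe {i j : Fin n} (h : i ≠ j) (a : F) : (tv h a : Mt n F) = 1 + single i j a := rfl

theorem tv_unip {i j : Fin n} (h : i ≠ j) (a : F) : Unip (tv h a) := by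
  refine ⟨2, ?_⟩
  rw [tv_coe, add_sub_cancel_left, pow_two, single_mul_single_of_ne _ _ _ _ h.symm]

theorem irrL (hKA : KAStmt) : IrrLStmt := by
  intro F _ _ _ n c hu
  have ka := hKA F n c
  have hn := c.hn
  haveI : Nontrivial (Fin n) := Fin.nontrivial_iff_two_le.2 hn
  refine ⟨?_, ?_, ?_, ?_⟩
  · intro x hx
    obtain ⟨r, hr⟩ := mem_range_scalar_iff_commute_single (M := x).2 (fun i j h => by
      have h1 := hx _ (tg_mem ka hu (SpecialLinearGroup.transvection h 1))
      have h2 : Commute x (1 + single i j 1) := h1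
      have h3 := h2.sub_right (Commute.one_right x)
      rw [add_sub_cancel_left] at h3
      exact h3.symm)
    exact ⟨r, by rw [← hr, scalar_apply, smul_one_eq_diagonal]⟩
  · intro N hN hnor
    haveI := Cfsg.Agent.H26.psl_isSimpleGroup (cnd c hu)
    have h1 : (N.comap tg).Normal := by
      refine ⟨fun x hx g => ?_⟩
      show tg (g * x * g⁻¹) ∈ N
      rw [map_mul, map_mul, map_inv]
      exact hnor _ (tg_mem ka hu g) _ hx
    have h2 : ((N.comap tg).map (QuotientGroup.mk' (Subgroup.center _)) :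
        Subgroup (ProjectiveSpecialLinearGroup (Fin n) F)).Normal :=
      h1.map _ (QuotientGroup.mk'_surjective _)
    rcases h2.eq_bot_or_eq_top with h | h
    · left
      intro x hx
      obtain ⟨y, rfl⟩ := ex_tg ka hu (hN hx)
      rw [Subgroup.map_eq_bot_iff, QuotientGroup.ker_mk'] at h
      exact cenZ ka hu (h hx)
    · right
      intro x hx
      obtain ⟨y, rfl⟩ := ex_tg ka hu hx
      have h3 : (QuotientGroup.mk' (Subgroup.center _) y : ProjectiveSpecialLinearGroup (Fin n) F) ∈
          (N.comap tg).map (QuotientGroup.mk' (Subgroup.center _)) := by rw [h]; trivial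
      obtain ⟨y', hy', e⟩ := h3
      have h4 : y'⁻¹ * y ∈ Subgroup.center (SpecialLinearGroup (Fin n) F) := QuotientGroup.eq.1 e
      have h5 : tg y = tg y' * tg (y'⁻¹ * y) := by rw [← map_mul, mul_inv_cancel_left]
      rw [h5]
      exact Subgroup.mul_mem_sup hy' (cenZ ka hu h4)
  · rw [S_eq ka hu, ← Subgroup.map_commutator]
    apply Subgroup.map_mono
    have := Cfsg.Agent.H26.sl_commutator_eq_top (cnd c hu)
    rw [commutator_def] at this
    exact this.ge
  · obtain ⟨i, j, h⟩ := exists_pair_ne (Fin n)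
    refine ⟨tv h 1, tg_mem ka hu _, ?_, tv_unip h 1⟩
    intro e
    have h1 : (tv h (1 : F) : Mt n F) i j = ((1 : Gl n F) : Mt n F) i j := by rw [e]
    rw [tv_coe] at h1
    simp [h] at h1

theorem fix {c : Cl F n} (ka : KA c) (kt : KT c) (kv : KV c) {ψ : Au n F} (hs : c.Std ψ)
    {s : Gl n F} (hz : ψ s * s⁻¹ ∈ c.Z) (hu : Unip s) : ψ s = s := by
  obtain ⟨k, hk⟩ := (kv.upow _).1 hu
  obtain ⟨l, hl⟩ := (kv.upow _).1 (kt.unip ψ hs s hu)
  have hc := ka.zcomm _ hz s
  have h1 : (ψ s * s⁻¹) ^ (c.p ^ (k + l)) = 1 := by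
    have h2 := hc.mul_pow (c.p ^ (k + l))
    rw [inv_mul_cancel_right] at h2
    have h3 : s ^ (c.p ^ (k + l)) = 1 := by rw [pow_add, pow_mul, hk, one_pow]
    have h4 : (ψ s) ^ (c.p ^ (k + l)) = 1 := by rw [pow_add, mul_comm, pow_mul, hl, one_pow]
    rw [h3, h4, mul_one] at h2
    exact h2.symm
  exact mul_inv_eq_one.1 (kv.uz _ hz ((kv.upow _).2 ⟨_, h1⟩))

theorem uniqL (hKA : KAStmt) (hKT : KTStmt) (hKV : KVStmt) : UniqLStmt := by
  intro F _ _ _ n c hu t ψ hi hz
  have ka := hKA F n c
  have kt := hKT F n c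
  have kv := hKV F n c
  have hn := c.hn
  haveI : Nontrivial (Fin n) := Fin.nontrivial_iff_two_le.2 hn
  have hf : ∀ {i j : Fin n} (h : i ≠ j) (a : F), ψ (tv h a) = tv h a := fun h a =>
    fix ka kt kv ⟨t, hi⟩ (hz _ (tg_mem ka hu _)) (tv_unip h a)
  cases hneg : t.neg
  · have h0 : ∀ x : Gl n F, ((ψ x : Gl n F) : Mt n F) = t.ap x := by
      intro x
      have := hi.2.2 x
      simpa [hneg] using this
    have h1 : ∀ {i j : Fin n} (h : i ≠ j) (a : F), t.ap (single i j a) = single i j a := by
      intro i j h a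
      have := h0 (tv h a)
      rw [hf, tv_coe, kt.add, kt.one] at this
      exact (add_left_cancel this).symm
    have h2 : ∀ (i j : Fin n) (a : F), t.ap (single i j a) = single i j a := by
      intro i j a
      by_cases h : i = j
      · subst h
        obtain ⟨k, hk⟩ := exists_ne i
        have e : (single i i a : Mt n F) = single i k a * single k i 1 := by
          rw [single_mul_single_same, mul_one]
        rw [e, kt.mul t hneg, h1 hk.symm, h1 hk]
      · exact h1 h a
    have h3 : ∀ x, t.ap x = x := by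
      intro x
      induction x using Matrix.induction_on' with
      | h_zero => exact kt.zero t
      | h_add p q hp hq => rw [kt.add, hp, hq]
      | h_std_basis i j a => exact h2 i j a
    refine ⟨?_, rfl, ?_⟩
    · ext1 x
      exact Units.ext ((h0 x).trans (h3 x))
    · ext1 a
      have h4 := kt.smul t a 1
      rw [h3, h3] at h4
      obtain ⟨i, -⟩ := exists_pair_ne (Fin n)
      have h5 := congrFun (congrFun h4 i) i
      simpa using h5.symm
  · exfalso
    have h3 := (hi.2.1 hneg).2
    have h1 : ∀ {i j : Fin n} (h : i ≠ j) (a : F), t.ap (single i j a) = single i j (-a) := by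
      intro i j h a
      have := hi.2.2 (tv h (-a))
      rw [hf, if_pos hneg, ← map_inv, SpecialLinearGroup.transvection_inv, neg_neg, tv_coe, tv_coe,
        kt.add, kt.one] at this
      exact (add_left_cancel this).symm
    let i0 : Fin n := ⟨0, by omega⟩
    let i1 : Fin n := ⟨1, by omega⟩
    let i2 : Fin n := ⟨2, by omega⟩
    have h01 : i0 ≠ i1 := by simp [i0, i1]
    have h12 : i1 ≠ i2 := by simp [i1, i2]
    have h02 : i0 ≠ i2 := by simp [i0, i2]
    have h4 := kt.mul' t hneg (single i0 i1 1) (single i1 i2 1)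
    rw [single_mul_single_same, h1 h01, h1 h12, h1 h02,
      single_mul_single_of_ne _ _ _ _ h02.symm] at h4
    have h5 := congrFun (congrFun h4 i0) i2
    simp at h5

end Cfsg.Agent.H80.SwIrrL
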